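import Cfsg.Agent.H776.ThBasic
import Mathlib.Tactic.DeriveFintype

/-!
Endomorphisms of `Z2` as `2 × 2` matrices over `ZMod 3`.
-/

set_option autoImplicit false
set_option linter.style.longLine false

namespace Cfsg.Agent.H776.ThS

open Subgroup

/-- `f` restricts to an endomorphism of `Z2` -/
structure Z2map (f : P → P) : Prop where
  maps : ∀ x ∈ Z2, f x ∈ Z2
  mul : ∀ x ∈ Z2, ∀ y ∈ Z2, f (x * y) = f x * f y

/-- matrices -/
@[ext] structure M4 where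
  a : ZMod 3
  b : ZMod 3
  c : ZMod 3
  d : ZMod 3
deriving DecidableEq, Fintype

/-- product of matrices -/
def M4.mul (p q : M4) : M4 :=
  ⟨p.a * q.a + p.c * q.b, p.b * q.a + p.d * q.b, p.a * q.c + p.c * q.d, p.b * q.c + p.d * q.d⟩

/-- the determinant -/
def M4.det (p : M4) : ZMod 3 := p.a * p.d - p.b * p.c

/-- identity -/
def M4.one : M4 := ⟨1, 0, 0, 1⟩

/-- powers -/
def M4.pow (p : M4) : ℕ → M4
  | 0 => M4.one
  | n + 1 => p.mul (p.pow n)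

/-- adjoint times determinant: the inverse of a matrix of determinant `±1` -/
def M4.inv (p : M4) : M4 := ⟨p.det * p.d, -p.det * p.b, -p.det * p.c, p.det * p.a⟩

/-- the matrix of an endomorphism of `Z2` in the basis `u9, u10` -/
def m4 (f : P → P) : M4 := ⟨(f u9).x9, (f u9).x10, (f u10).x9, (f u10).x10⟩

theorem Z2map.id : Z2map (fun x => x) := ⟨fun _ hx => hx, fun _ _ _ _ => rfl⟩

theorem Z2map.comp {f g : P → P} (hf : Z2map f) (hg : Z2map g) : Z2map (fun x => f (g x)) :=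
  ⟨fun x hx => hf.maps _ (hg.maps x hx), fun x hx y hy => by
    rw [hg.mul x hx y hy, hf.mul _ (hg.maps x hx) _ (hg.maps y hy)]⟩

theorem Z2map.one {f : P → P} (hf : Z2map f) : f 1 = 1 := by
  have h := hf.mul 1 (one_mem _) 1 (one_mem _)
  rw [mul_one] at h
  exact left_eq_mul.1 h

theorem Z2map.pow {f : P → P} (hf : Z2map f) {x : P} (hx : x ∈ Z2) (n : ℕ) : f (x ^ n) = f x ^ n := by
  induction n with
  | zero => rw [pow_zero, pow_zero, hf.one]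
  | succ n ih => rw [pow_succ, pow_succ, hf.mul _ (pow_mem hx n) _ hx, ih]

theorem Z2_eq {x : P} (hx : x ∈ Z2) : x = ⟨0, 0, 0, 0, 0, 0, 0, 0, x.x9, x.x10⟩ := by
  obtain ⟨a1, a2, a3, a4, a5, a6, a7, a8⟩ := hx
  ext <;> simp [a1, a2, a3, a4, a5, a6, a7, a8]

theorem Z2_ext {x y : P} (hx : x ∈ Z2) (hy : y ∈ Z2) (h9 : x.x9 = y.x9) (h10 : x.x10 = y.x10) : x = y := by
  rw [Z2_eq hx, Z2_eq hy, h9, h10]

theorem Z2map.eval {f : P → P} (hf : Z2map f) {x : P} (hx : x ∈ Z2) :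
    f x = ⟨0, 0, 0, 0, 0, 0, 0, 0, (m4 f).a * x.x9 + (m4 f).c * x.x10, (m4 f).b * x.x9 + (m4 f).d * x.x10⟩ := by
  have h9 := hf.maps u9 u9_mem
  have h10 := hf.maps u10 (Z1_le_Z2 u10_mem)
  have h1 := mem_Z2_pow hx
  rw [h1, hf.mul _ (pow_mem u9_mem _) _ (pow_mem (Z1_le_Z2 u10_mem) _), hf.pow u9_mem, hf.pow (Z1_le_Z2 u10_mem), ← h1,
    N5_pow (Z2_le_N5 h9), N5_pow (Z2_le_N5 h10), zmod3_cast, zmod3_cast,
    N5_mul_eq ⟨rfl, rfl, rfl, rfl, rfl⟩ ⟨rfl, rfl, rfl, rfl, rfl⟩, h9.2.2.2.2.2.1, h9.2.2.2.2.2.2.1, h9.2.2.2.2.2.2.2,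
    h10.2.2.2.2.2.1, h10.2.2.2.2.2.2.1, h10.2.2.2.2.2.2.2]
  simp only [m4]
  ext <;> simp [mul_comm]

theorem Z2map.m4_comp {f g : P → P} (hf : Z2map f) (hg : Z2map g) : m4 (fun x => f (g x)) = (m4 f).mul (m4 g) := by
  have h1 := hf.eval (hg.maps u9 u9_mem)
  have h2 := hf.eval (hg.maps u10 (Z1_le_Z2 u10_mem))
  ext
  · exact congrArg V.x9 h1
  · exact congrArg V.x10 h1
  · exact congrArg V.x9 h2
  · exact congrArg V.x10 h2

theorem m4_id : m4 (fun x => x) = M4.one := rfl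

theorem m4_congr {f g : P → P} (h : ∀ x ∈ Z2, f x = g x) : m4 f = m4 g := by
  simp only [m4, h u9 u9_mem, h u10 (Z1_le_Z2 u10_mem)]

theorem Z2map.ext {f g : P → P} (hf : Z2map f) (hg : Z2map g) (h : m4 f = m4 g) {x : P} (hx : x ∈ Z2) : f x = g x := by
  rw [hf.eval hx, hg.eval hx, h]

theorem Z2map.eq_inv {f : P → P} (hf : Z2map f) (h : m4 f = ⟨-1, 0, 0, -1⟩) {x : P} (hx : x ∈ Z2) : f x = x⁻¹ := by
  rw [hf.eval hx, h, N5_inv (Z2_le_N5 hx)]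
  obtain ⟨a1, a2, a3, a4, a5, a6, a7, a8⟩ := hx
  ext <;> simp [a6, a7, a8]

theorem Z2map.congr {f g : P → P} (hf : Z2map f) (h : ∀ x ∈ Z2, g x = f x) : Z2map g :=
  ⟨fun x hx => by rw [h x hx]; exact hf.maps x hx, fun x hx y hy => by
    rw [h x hx, h y hy, h _ (mul_mem hx hy)]; exact hf.mul x hx y hy⟩

theorem Z2map.iterate {f : P → P} (hf : Z2map f) (n : ℕ) : Z2map f^[n] ∧ m4 f^[n] = (m4 f).pow n := by
  induction n with
  | zero => exact ⟨Z2map.id, rfl⟩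
  | succ n ih =>
    have h : f^[n + 1] = fun x => f (f^[n] x) := by
      funext x
      exact Function.iterate_succ_apply' f n x
    rw [h]
    exact ⟨hf.comp ih.1, by rw [hf.m4_comp ih.1, ih.2]; rfl⟩

/-- conjugation by `s` on `Z2` -/
theorem Z2map_conj (s : P) : Z2map (fun x => s * x * s⁻¹) :=
  ⟨fun x hx => by
    have h := Z1_le_Z2 (Z2_conj hx s)
    have h2 := mul_mem h hx
    rwa [inv_mul_cancel_right] at h2, fun x _ y _ => by group⟩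

theorem m4_conj (s : P) : m4 (fun x => s * x * s⁻¹) = ⟨1, -s.x1, 0, 1⟩ := by
  have h9 : s * u9 * s⁻¹ = ⟨0, 0, 0, 0, 0, 0, 0, 0, 1, -s.x1⟩ := by
    rw [N5_conj' _ _ (Z2_le_N5 u9_mem)]
    simp [cx, u9, inv_x1, inv_x2]
  have h10 : s * u10 * s⁻¹ = u10 := by
    rw [← Z1_comm u10_mem, mul_inv_cancel_right]
  simp only [m4, h9, h10]
  rfl

/-! ### matrix facts -/

theorem mat_neg : ∀ e : ZMod 3, e ≠ 0 → ∀ p : M4, p.det ≠ 0 → p.c ≠ 0 → ∃ i < 3, ∃ j < 3,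
    ((((⟨1, e, 0, 1⟩ : M4).pow i).mul ((p.mul ((⟨1, e, 0, 1⟩ : M4).pow j)).mul p.inv)).mul ((⟨1, e, 0, 1⟩ : M4).pow i)).pow 2
      = ⟨-1, 0, 0, -1⟩ := by
  decide +kernel

theorem mat_three : ∀ e : ZMod 3, e ≠ 0 → ∀ p : M4, p.det = -1 →
    (p.inv.mul (((⟨1, e, 0, 1⟩ : M4).mul p).mul (⟨1, -e, 0, 1⟩ : M4))).pow 4 ≠ M4.one ∧
    (p.inv.mul (((⟨1, e, 0, 1⟩ : M4).mul p).mul (⟨1, -e, 0, 1⟩ : M4))).pow 12 = M4.one := by
  decide +kernel

theorem mat_inv : ∀ p : M4, p.det ≠ 0 → p.inv.mul p = M4.one ∧ p.mul p.inv = M4.one := by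
  decide +kernel

theorem mat_tri : ∀ e : ZMod 3, e ≠ 0 → ∀ p : M4, p.det ≠ 0 → p.c ≠ 0 → ∀ q : M4, q.det = -1 → ∃ i < 3, ∃ j < 3, ∃ k < 3,
    (((((⟨1, e, 0, 1⟩ : M4).pow i).mul ((p.mul ((⟨1, e, 0, 1⟩ : M4).pow j)).mul p.inv)).mul
      ((⟨1, e, 0, 1⟩ : M4).pow k)).mul q).c = 0 := by
  decide +kernel

/-- search for a triangular matrix as a word -/
def chkBorel (e a b a' b' d' : ZMod 3) : Bool :=
  (List.range 3).any fun i => (List.range 2).any fun j => (List.range 2).any fun k =>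
    decide ((⟨a', b', 0, d'⟩ : M4) =
      (((⟨1, e, 0, 1⟩ : M4).pow i).mul ((⟨a, b, 0, -a⟩ : M4).pow j)).mul ((⟨-1, 0, 0, -1⟩ : M4).pow k))

theorem chkBorel_all : ∀ e a b a' b' d' : ZMod 3, e ≠ 0 → a ≠ 0 → a' ≠ 0 → d' ≠ 0 → chkBorel e a b a' b' d' = true := by
  decide +kernel

theorem mat_borel {e : ZMod 3} (he : e ≠ 0) {q : M4} (hq : q.det = -1) (hqc : q.c = 0) {r : M4} (hr : r.det ≠ 0)
    (hrc : r.c = 0) : ∃ i j k : ℕ,
      r = (((⟨1, e, 0, 1⟩ : M4).pow i).mul (q.pow j)).mul ((⟨-1, 0, 0, -1⟩ : M4).pow k) := by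
  obtain ⟨a, b, c, d⟩ := q
  obtain ⟨a', b', c', d'⟩ := r
  subst hqc
  subst hrc
  have h1 : a ≠ 0 ∧ d = -a := by
    simp only [M4.det] at hq
    revert hq
    clear hr
    revert a b d
    decide
  have h2 : a' ≠ 0 ∧ d' ≠ 0 := by
    simp only [M4.det] at hr
    clear hq h1
    revert a' b' d'
    decide
  obtain ⟨ha, rfl⟩ := h1
  have h := chkBorel_all e a b a' b' d' he ha h2.1 h2.2
  simp only [chkBorel, List.any_eq_true, decide_eq_true_eq] at h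
  obtain ⟨i, -, j, -, k, -, h⟩ := h
  exact ⟨i, j, k, h⟩

theorem mat_det_mul : ∀ p q : M4, (p.mul q).det = p.det * q.det := by
  intro p q
  simp only [M4.det, M4.mul]
  ring

end Cfsg.Agent.H776.ThS
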