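import Cfsg.Agent.H776.ThIn

/-!
Fusion systems on the model group: the contexts coming from essential subgroups; the automorphism group of `E1`
moves the centre, and `Z2` is moved in one of two ways.
-/

set_option autoImplicit false

namespace Cfsg.Agent.H776.ThS

open Subgroup Cfsg Cfsg.Agent.H752

/-- the automorphisms of `Q` in the system, as functions -/
def AF (F : FusionSystem (⊤ : Subgroup P)) (Q : Subgroup P) : Set (P → P) := {f | Mp F Q f ∧ ∀ x ∈ Q, f x ∈ Q}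

variable {F : FusionSystem (⊤ : Subgroup P)}

theorem isPGroup_top : IsPGroup 3 (⊤ : Subgroup P) := isPGroup_P.to_subgroup ⊤

theorem AF.exists_inv {Q : Subgroup P} {f : P → P} (hf : f ∈ AF F Q) :
    ∃ g ∈ AF F Q, ∀ x ∈ Q, g (f x) = x ∧ f (g x) = x := by
  have hs : ∀ y, y ∈ Q ↔ ∃ x ∈ Q, f x = y := fun y =>
    ⟨fun hy => hf.1.surj hf.2 hy, fun ⟨x, hx, h⟩ => h ▸ hf.2 x hx⟩
  obtain ⟨g, hg, h1, h2⟩ := hf.1.exists_symm le_rfl hs
  exact ⟨g, ⟨hg, fun x hx => (h2 x hx).1⟩, fun x hx => ⟨h1 x hx, (h2 x hx).2⟩⟩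

theorem ctx_of (F : FusionSystem (⊤ : Subgroup P)) {Q : Subgroup P} (hc : ∀ x : P, (∀ q ∈ Q, x * q = q * x) → x ∈ Q) :
    Ctx Q (AF F Q) where
  id_mem := ⟨mp_id F le_top, fun _ hx => hx⟩
  comp _ hf _ hg := ⟨hg.1.comp hf.1 hg.2, fun x hx => hf.2 _ (hg.2 x hx)⟩
  inv _ hf := AF.exists_inv hf
  maps _ hf := hf.2
  mul _ hf _ hx _ hy := hf.1.mul hx hy
  conj n hn := ⟨mp_conj F le_top (mem_top n), fun x hx => (mem_normalizer_iff.1 hn x).1 hx⟩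
  cent := hc

theorem cent_of_centric {Q : Subgroup P} (hQ : F.IsCentric Q) (x : P) (hx : ∀ q ∈ Q, x * q = q * x) : x ∈ Q := by
  have h : x ∈ centralizer (Q : Set P) := by
    rw [mem_centralizer_iff]
    intro q hq
    exact (hx q hq).symm
  exact hQ.2 Q (H802.isConj_refl F hQ.1) ⟨mem_top x, h⟩

theorem centric_Z1 {Q : Subgroup P} (hQ : F.IsCentric Q) : Z1 ≤ Q :=
  fun z hz => cent_of_centric hQ z fun q _ => Z1_comm hz q

/-! ### invariance -/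

theorem top_surj {f : P → P} (hf : Mp F ⊤ f) (y : P) : ∃ x, f x = y := by
  obtain ⟨x, -, h⟩ := hf.surj (fun x _ => mem_top _) (mem_top y)
  exact ⟨x, h⟩

theorem top_mul {f : P → P} (hf : Mp F ⊤ f) (x y : P) : f (x * y) = f x * f y := hf.mul (mem_top x) (mem_top y)

theorem top_Z1 {f : P → P} (hf : Mp F ⊤ f) {x : P} (hx : x ∈ Z1) : f x ∈ Z1 := by
  apply center_P
  intro y
  obtain ⟨y, rfl⟩ := top_surj hf y
  rw [← top_mul hf, Z1_comm hx, top_mul hf]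

theorem top_Z2 {f : P → P} (hf : Mp F ⊤ f) {x : P} (hx : x ∈ Z2) : f x ∈ Z2 := by
  apply mem_Z2_of
  intro y
  obtain ⟨y, rfl⟩ := top_surj hf y
  obtain ⟨z, hz, h⟩ := Z2_comm' hx y
  exact ⟨f z, top_Z1 hf hz, by rw [← top_mul hf, h, top_mul hf, top_mul hf]⟩

theorem E1_Z2 {f : P → P} (hf : f ∈ AF F E1) {x : P} (hx : x ∈ Z2) : f x ∈ Z2 := by
  apply center_E1 (hf.2 x (Z2_le_E1 hx))
  intro y hy
  obtain ⟨y, hy', rfl⟩ := hf.1.surj hf.2 hy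
  rw [← hf.1.mul (Z2_le_E1 hx) hy', Z2_comm hx hy', hf.1.mul hy' (Z2_le_E1 hx)]

/-- abelian subgroups are not strongly closed in a core-free system -/
theorem not_closed (hF : F.IsSaturated 3) (hcore : F.core = ⊥) {W : Subgroup P} (hab : ∀ x ∈ W, ∀ y ∈ W, x * y = y * x)
    (hne : W ≠ ⊥) : ¬ F.StronglyClosed W := by
  intro h
  have h1 : ⁅W, W⁆ = ⊥ := by
    rw [commutator_eq_bot_iff_le_centralizer]
    intro x hx
    rw [mem_centralizer_iff]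
    intro y hy
    exact hab y hy x hx
  have h2 := H759.IsNormal.le_core (H759.isNormal_of_abelian isPGroup_top hF h h1)
  rw [hcore, le_bot_iff] at h2
  exact hne h2

theorem SE_of (hF : F.IsSaturated 3) {Q U : Subgroup P} (hQS : Q < ⊤) (hQ : F.IsEssential 3 Q) (hU : U ≤ Q)
    (hext : ∀ (R : Subgroup P) (f : P → P), Q < R → Mp F R f → (∀ x ∈ Q, f x ∈ Q) → ∀ x ∈ U, f x ∈ U)
    (hmov : ∃ f ∈ AF F Q, ∃ x ∈ U, f x ∉ U) : SE Q (AF F Q) U := by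
  intro u hu hup hui a ha b hb hua hub
  obtain ⟨f, hf, x, hx, hfx⟩ := hmov
  exact se_of_essential isPGroup_top hF hQS hQ hU hext ⟨f, hf.1, hf.2, x, hx, hfx⟩ hu.1 hu.2 hup hui ha.1 ha.2 hb.1
    hb.2 hua hub

theorem lt_card {Q R : Subgroup P} (h : Q < R) : Nat.card Q < Nat.card R := by
  refine lt_of_le_of_ne (card_le_of_le h.le) fun hc => h.ne ?_
  exact eq_of_le_of_card_ge h.le hc.ge

/-- an essential subgroup with automorphisms moving `Z1` is `E1` as soon as extendable automorphisms fix `Z1` -/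
theorem eq_E1 (hF : F.IsSaturated 3) {Q : Subgroup P} (hQS : Q < ⊤) (hQ : F.IsEssential 3 Q)
    (hext : ∀ (R : Subgroup P) (f : P → P), Q < R → Mp F R f → (∀ x ∈ Q, f x ∈ Q) → ∀ x ∈ Z1, f x ∈ Z1)
    (hmov : ∃ f ∈ AF F Q, ∃ x ∈ Z1, f x ∉ Z1) : Q = E1 := by
  have h1 := centric_Z1 hQ.1
  refine thmI (ctx_of F (cent_of_centric hQ.1)) (SE_of hF hQS hQ h1 hext hmov) ?_
  obtain ⟨f, hf, x, hx, hfx⟩ := hmov
  refine ⟨f, hf, fun h => hfx ?_⟩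
  rw [mem_Z1_pow hx, hf.1.pow (h1 u10_mem)]
  exact pow_mem h _

/-- the automorphism group of `E1` moves the centre -/
theorem exists_move (hF : F.IsSaturated 3) (hcore : F.core = ⊥) : ∃ f ∈ AF F E1, f u10 ∉ Z1 := by
  have hne : Z1 ≠ ⊥ := fun h => u10_ne_one (by simpa [h] using u10_mem)
  obtain ⟨Q, hQS, hQ, -, -, ⟨f, hf, hfQ, x, hxQ, hxZ, hfx⟩, hbig⟩ := exists_bad isPGroup_top hF (W := Z1) le_top
    (fun f hf x hx => top_Z1 hf hx) (not_closed hF hcore (fun x hx y _ => Z1_comm hx y) hne)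
  have hmov : ∃ f ∈ AF F Q, ∃ x ∈ Z1, f x ∉ Z1 := ⟨f, ⟨hf, hfQ⟩, x, hxZ, hfx⟩
  have h1 := eq_E1 hF hQS hQ (fun R g hR hg _ x hx => (hbig R g (lt_card hR) hg x
    (hR.le (centric_Z1 hQ.1 hx))).1 hx) hmov
  subst h1
  refine ⟨f, ⟨hf, hfQ⟩, fun h => hfx ?_⟩
  rw [mem_Z1_pow hxZ, hf.pow (centric_Z1 hQ.1 u10_mem)]
  exact pow_mem h _

/-- a subgroup containing `Z1` and an element of `Z2` outside `Z1` contains `Z2`; otherwise it meets `Z2` in `Z1` -/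
theorem Z2_le_or {Q : Subgroup P} (h1 : Z1 ≤ Q) : Z2 ≤ Q ∨ ∀ x ∈ Q, x ∈ Z2 → x ∈ Z1 := by
  by_cases h : ∀ x ∈ Q, x ∈ Z2 → x ∈ Z1
  · exact Or.inr h
  · push Not at h
    obtain ⟨x, hxQ, hx2, hx1⟩ := h
    exact Or.inl (Z2_le_of (h1 u10_mem) hx2 hx1 hxQ)

theorem E1_not_top : E1 ≠ ⊤ := by
  intro h
  have h1 : u1 ∈ E1 := h ▸ mem_top u1
  have h2 : (1 : ZMod 3) = 0 := h1
  exact absurd h2 (by decide)

/-- the properties of an essential subgroup in the second case -/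
structure CaseB (F : FusionSystem (⊤ : Subgroup P)) (Q : Subgroup P) : Prop where
  le : Q ≤ E1
  ge : Z2 ≤ Q
  cent : ∀ x : P, (∀ q ∈ Q, x * q = q * x) → x ∈ Q
  se : SE Q (AF F Q) Z2
  mov : ∃ a ∈ AF F Q, ∃ w ∈ Z2, a w ∉ Z2
  rk : ∀ a ∈ AF F Q, (∃ w ∈ Z2, a w ∉ Z2) → ∀ w ∈ Z2, w ≠ 1 → a w ∉ N5 ∧ ∀ z ∈ Z2, ∃ n ∈ N5, n * a w * n⁻¹ = a w * z

/-- the properties of `E2` in the first case -/
structure CaseA (F : FusionSystem (⊤ : Subgroup P)) : Prop where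
  fix : ∀ a ∈ AF F E2, a u10 ∈ Z1
  mov : ∃ a ∈ AF F E2, a u9 ∉ Z2
  le : ∀ a ∈ AF F E2, ∀ w ∈ Z2, a w ∈ Z3

theorem E1_cent (x : P) (hx : ∀ q ∈ E1, x * q = q * x) : x ∈ E1 :=
  mem_E1_of_comm (hx u9 (Z2_le_E1 u9_mem)).symm

/-- `Z2` is moved in one of two ways -/
theorem exists_case (hF : F.IsSaturated 3) (hcore : F.core = ⊥) : CaseA F ∨ ∃ Q, CaseB F Q := by
  have hne : Z2 ≠ ⊥ := fun h => u10_ne_one (by simpa [h] using Z1_le_Z2 u10_mem)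
  obtain ⟨Q, hQS, hQ, hQa, hQr, ⟨f, hf, hfQ, x, hxQ, hxZ, hfx⟩, hbig⟩ := exists_bad isPGroup_top hF (W := Z2) le_top
    (fun f hf x hx => top_Z2 hf hx)
    (not_closed hF hcore (fun x hx y hy => Z2_comm hx (Z2_le_E1 hy)) hne)
  have hc := cent_of_centric hQ.1
  have hZ1 := centric_Z1 hQ.1
  have hfA : f ∈ AF F Q := ⟨hf, hfQ⟩
  -- extendable automorphisms fix `Z2 ∩ Q`
  have hext : ∀ (R : Subgroup P) (g : P → P), Q < R → Mp F R g → (∀ x ∈ Q, g x ∈ Q) → ∀ x ∈ Q, x ∈ Z2 → g x ∈ Z2 :=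
    fun R g hR hg _ x hxQ hx2 => (hbig R g (lt_card hR) hg x (hR.le hxQ)).1 hx2
  rcases Z2_le_or hZ1 with h2 | h2
  swap
  · exfalso
    have h3 : Q = E1 := eq_E1 hF hQS hQ
      (fun R g hR hg hgQ x hx => h2 _ (hgQ x (hZ1 hx)) (hext R g hR hg hgQ x (hZ1 hx) (Z1_le_Z2 hx)))
      ⟨f, hfA, x, h2 x hxQ hxZ, fun h => hfx (Z1_le_Z2 h)⟩
    apply u9_not_mem
    exact h2 u9 (h3 ▸ Z2_le_E1 u9_mem) u9_mem
  have hext2 : ∀ (R : Subgroup P) (g : P → P), Q < R → Mp F R g → (∀ x ∈ Q, g x ∈ Q) → ∀ x ∈ Z2, g x ∈ Z2 :=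
    fun R g hR hg hgQ x hx => hext R g hR hg hgQ x (h2 hx) hx
  have hctx := ctx_of F hc
  have hse : SE Q (AF F Q) Z2 := SE_of hF hQS hQ h2 hext2 ⟨f, hfA, x, hxZ, hfx⟩
  by_cases hfix : ∀ a ∈ AF F Q, a u10 ∈ Z1
  · left
    have hmov : ∃ a ∈ AF F Q, a u9 ∉ Z2 := by
      refine ⟨f, hfA, fun h9 => hfx ?_⟩
      rw [mem_Z2_pow hxZ, hf.mul (pow_mem (h2 u9_mem) _) (pow_mem (hZ1 u10_mem) _), hf.pow (h2 u9_mem),
        hf.pow (hZ1 u10_mem)]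
      exact mul_mem (pow_mem h9 _) (pow_mem (Z1_le_Z2 (hfix f hfA)) _)
    obtain ⟨h3, h4⟩ := thmII hctx hse (fun D hD hDA n hn h5 h6 =>
      core_of_essential isPGroup_top hQ hD (fun g hg hgQ => hDA g ⟨hg, hgQ⟩) (mem_top n) hn h5 h6) h2 hfix hmov
    subst h3
    exact ⟨hfix, hmov, h4⟩
  right
  push Not at hfix
  obtain ⟨b, hb, hb1⟩ := hfix
  by_cases hk : ∀ k ∈ AF F Q, (∀ w ∈ Z2, k w ∈ Z2) → k u10 ∈ Z1
  · exfalso
    have h3 : Q = E1 := by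
      refine eq_E1 hF hQS hQ (fun R g hR hg hgQ y hy => ?_) ⟨b, hb, u10, u10_mem, hb1⟩
      have h4 := hk g ⟨hg.res hR.le, hgQ⟩ (hext2 R g hR hg hgQ)
      rw [mem_Z1_pow hy, hg.pow (hR.le (hZ1 u10_mem))]
      exact pow_mem h4 _
    subst h3
    exact hfx (E1_Z2 hfA hxZ)
  push Not at hk
  obtain ⟨k, hkA, hk2, hk1⟩ := hk
  have hQE : Q ≤ E1 := by
    intro q hq
    apply mem_E1_of_comm
    obtain ⟨q, hq', rfl⟩ := hkA.1.surj hkA.2 hq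
    have h3 : Z2 ≤ centralizer {k q} := by
      refine Z2_le_of ?_ (hk2 u10 (Z1_le_Z2 u10_mem)) hk1 ?_
      · rw [mem_centralizer_singleton_iff]
        exact Z1_comm u10_mem _
      · rw [mem_centralizer_singleton_iff]
        rw [← hkA.1.mul (hZ1 u10_mem) hq', Z1_comm u10_mem, hkA.1.mul hq' (hZ1 u10_mem)]
    have h4 := h3 u9_mem
    rw [mem_centralizer_singleton_iff] at h4
    exact h4
  refine ⟨Q, hQE, h2, hc, hse, ⟨f, hfA, x, hxZ, hfx⟩, ?_⟩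
  refine thmBeta hctx hse hQE h2 ⟨f, hfA, x, hxZ, hfx⟩ ⟨k, hkA, hk2, hk1⟩ (ctx_of F E1_cent) (exists_move hF hcore) ?_ ?_
  · intro α hα β hβ hβα y hy
    refine ⟨?_, ?_⟩
    · refine Mp.comp (P := Q) (Q := E1) (f := fun x => y * α x * y⁻¹) (g := β) ?_ hβ.1 ?_
      · exact (hα.1.res hQE).comp (mp_conj F le_top (mem_top y)) fun x _ => mem_top _
      · intro z hz
        obtain ⟨z', hz', h5⟩ := hy z hz
        show y * α z * y⁻¹ ∈ E1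
        rw [h5]
        exact hα.2 z' (hQE hz')
    · intro z hz
      obtain ⟨z', hz', h5⟩ := hy z hz
      show β (y * α z * y⁻¹) ∈ Q
      rw [h5, hβα z' (hQE hz')]
      exact hz'
  · intro α hα N hN
    obtain ⟨T, hT, -, -⟩ := hα.1.exists_image hQE
    have hconj : F.IsConj Q T := by
      obtain ⟨φ, hφ, h5⟩ := hα.1.res hQE
      refine ⟨φ, hφ, ?_⟩
      ext y
      rw [hT y, MonoidHom.mem_range]
      constructor
      · rintro ⟨z, rfl⟩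
        exact ⟨z, z.2, (h5 z z.2).symm⟩
      · rintro ⟨z, hz, rfl⟩
        exact ⟨⟨z, hz⟩, h5 z hz⟩
    have h6 := hQ.2.1.2 T hconj
    have h7 : ∀ K : Subgroup P, FusionSystem.normalizerIn (⊤ : Subgroup P) K = normalizer (K : Set P) := fun K =>
      top_inf_eq _
    rw [h7, h7] at h6
    refine le_trans (card_le_of_le fun n hn => ?_) h6
    have key : ∀ m ∈ N, ∀ y ∈ T, m * y * m⁻¹ ∈ T := by
      intro m hm y hy
      obtain ⟨z, hz, rfl⟩ := (hT y).1 hy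
      obtain ⟨z', hz', h8⟩ := hN m hm z hz
      rw [h8]
      exact (hT _).2 ⟨z', hz', rfl⟩
    rw [mem_normalizer_iff]
    intro y
    refine ⟨key n hn y, fun hy => ?_⟩
    have h9 := key n⁻¹ (inv_mem hn) _ hy
    simpa [mul_assoc] using h9

end Cfsg.Agent.H776.ThS
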