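import Cfsg.Agent.H776.ThFusA
import Cfsg.Agent.H776.ThAct
import Cfsg.Agent.H777.PGrp

/-!
Strongly closed subgroups of core-free saturated systems on the model group.
-/

set_option autoImplicit false
set_option linter.style.longLine false

namespace Cfsg.Agent.H776.ThS

open Subgroup Cfsg Cfsg.Agent.H752

variable {F : FusionSystem (⊤ : Subgroup P)} {T : Subgroup P}

theorem normal_of_closed (hT : F.StronglyClosed T) : T.Normal :=
  ⟨fun _ ht s => H759.StronglyClosed.conj_mem hT (mem_top s) ht⟩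

theorem u10_pow_mem {H : Subgroup P} {b : P} (hb : b ∈ Z1) (hb1 : b ≠ 1) (hbH : b ∈ H) : u10 ∈ H := by
  have h10 : b.x10 ≠ 0 := by
    intro h
    apply hb1
    rw [mem_Z1_pow hb, h]
    rfl
  have h : u10 = b ^ b.x10.val := by
    rw [N5_pow (Z1_le_N5 hb), zmod3_cast]
    obtain ⟨a1, a2, a3, a4, a5, a6, a7, a8, a9⟩ := hb
    have h9' : b.x10 * b.x10 = 1 := by
      revert h10
      generalize b.x10 = a
      revert a
      decide
    ext <;> simp [u10, a6, a7, a8, a9, h9']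
  rw [h]
  exact pow_mem hbH _

/-- a nontrivial strongly closed subgroup contains `Z2` -/
theorem Z2_le_T (hF : F.IsSaturated 3) (hcore : F.core = ⊥) (hT : F.StronglyClosed T) (hne : T ≠ ⊥) : Z2 ≤ T := by
  obtain ⟨b, hb, hb1, hbc⟩ := H777.PGrp.inf_center_ne_bot isPGroup_P hne (normal_of_closed hT)
  have hbZ : b ∈ Z1 := center_P fun y => (hbc y).symm
  have hu := u10_pow_mem hbZ hb1 hb
  obtain ⟨f, hf, hf1⟩ := exists_move hF hcore
  exact Z2_le_of hu (E1_Z2 hf (Z1_le_Z2 u10_mem)) hf1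
    (mp_mem_of_stronglyClosed hT hf.1 (Z2_le_E1 (Z1_le_Z2 u10_mem)) hu)

theorem AF_Z2map {f : P → P} (hf : f ∈ AF F E1) : Z2map f :=
  ⟨fun _ hx => E1_Z2 hf hx, fun _ hx _ hy => hf.1.mul (Z2_le_E1 hx) (Z2_le_E1 hy)⟩

theorem m4_c {f : P → P} (hf : Z2map f) (h : f u10 ∉ Z1) : (m4 f).c ≠ 0 := by
  intro h0
  have h2 := hf.maps u10 (Z1_le_Z2 u10_mem)
  exact h ⟨h2.1, h2.2.1, h2.2.2.1, h2.2.2.2.1, h2.2.2.2.2.1, h2.2.2.2.2.2.1, h2.2.2.2.2.2.2.1, h2.2.2.2.2.2.2.2, h0⟩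

theorem m4_det_of_inv {f g : P → P} (hf : Z2map f) (hg : Z2map g) (h : ∀ x ∈ Z2, g (f x) = x) : (m4 f).det ≠ 0 := by
  intro h0
  have h1 := hg.m4_comp hf
  rw [m4_congr (g := fun x => x) h, m4_id] at h1
  have h2 := congrArg M4.det h1
  rw [mat_det_mul, h0, mul_zero] at h2
  exact absurd h2 (by decide)

/-- if a set `M` of maps closed under composition contains `u1`-type transvections and its conjugates, it contains the
inversion of `Z2` -/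
theorem exists_neg {M : Set (P → P)} (hM : ∀ f ∈ M, Z2map f) (hMc : ∀ f ∈ M, ∀ g ∈ M, (fun x => f (g x)) ∈ M)
    (hid : (fun x => x) ∈ M) {s : P} (hs : s ∉ E1) (hsM : (fun x => s * x * s⁻¹) ∈ M) {a b : P → P} (ha : Z2map a)
    (hb : Z2map b) (hab : ∀ x ∈ Z2, a (b x) = x) (hba : ∀ x ∈ Z2, b (a x) = x) (ha1 : a u10 ∉ Z1)
    (hconj : ∀ f ∈ M, (fun x => a (f (b x))) ∈ M) : ∃ m ∈ M, ∀ x ∈ Z2, m x = x⁻¹ := by
  have hit : ∀ f ∈ M, ∀ n : ℕ, f^[n] ∈ M := by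
    intro f hf n
    induction n with
    | zero => exact hid
    | succ n ih =>
      have h : f^[n + 1] = fun x => f (f^[n] x) := by
        funext x
        exact Function.iterate_succ_apply' f n x
      rw [h]
      exact hMc f hf _ ih
  set t : P → P := fun x => s * x * s⁻¹ with ht
  have ht4 : m4 t = ⟨1, -s.x1, 0, 1⟩ := m4_conj s
  have hdet : (m4 a).det ≠ 0 := m4_det_of_inv ha hb hba
  have hb4 : m4 b = (m4 a).inv := by
    have h1 := ha.m4_comp hb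
    rw [m4_congr (g := fun x => x) hab, m4_id] at h1
    have h2 := (mat_inv _ hdet).1
    have h3 : ((m4 a).inv.mul (m4 a)).mul (m4 b) = (m4 a).inv.mul ((m4 a).mul (m4 b)) := by
      simp only [M4.mul, M4.inv]
      ext <;> simp <;> ring
    rw [h2, ← h1] at h3
    have h4 : M4.one.mul (m4 b) = m4 b := by
      simp [M4.mul, M4.one]
    have h5 : (m4 a).inv.mul M4.one = (m4 a).inv := by
      simp [M4.mul, M4.one]
    rw [h4, h5] at h3
    exact h3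
  obtain ⟨i, -, j, -, h⟩ := mat_neg (-s.x1) (neg_ne_zero.2 hs) (m4 a) hdet (m4_c ha ha1)
  have hi := hit t hsM i
  have hj := hit t hsM j
  have hz := fun n => (Z2map_conj s).iterate n
  have hcj := hconj _ hj
  have e1 : m4 (fun x => a (t^[j] (b x))) = ((m4 a).mul ((m4 t).pow j)).mul (m4 a).inv := by
    have h1 := ha.m4_comp ((hz j).1.comp hb)
    have h2 := (hz j).1.m4_comp hb
    rw [h1, h2, (hz j).2, hb4]
    simp only [M4.mul]
    ext <;> simp <;> ring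
  have hw1 := hMc _ hcj _ hi
  have hw2 := hMc _ hi _ hw1
  have hw3 := hMc _ hw2 _ hw2
  refine ⟨_, hw3, fun x hx => ?_⟩
  refine (hM _ hw3).eq_inv ?_ hx
  rw [(hM _ hw2).m4_comp (hM _ hw2), (hM _ hi).m4_comp (hM _ hw1), (hM _ hcj).m4_comp (hM _ hi), e1, (hz i).2]
  rw [ht4] at *
  rw [← h]
  simp only [M4.pow, M4.one]
  generalize (⟨1, -s.x1, 0, 1⟩ : M4).pow i = X1
  generalize (⟨1, -s.x1, 0, 1⟩ : M4).pow j = X2
  simp only [M4.mul]
  ext <;> simp <;> ring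

/-! ### the case `T ≰ E1` -/

theorem pow_x1 (x : P) (n : ℕ) : (x ^ n).x1 = n * x.x1 := by
  induction n with
  | zero => simp [one_x1]
  | succ n ih =>
    rw [pow_succ, mul_x1, ih]
    push_cast
    ring

theorem pow_x2 (x : P) (n : ℕ) : (x ^ n).x2 = n * x.x2 := by
  induction n with
  | zero => simp [one_x2]
  | succ n ih =>
    rw [pow_succ, mul_x2, ih]
    push_cast
    ring

theorem top_of_E1_le {T : Subgroup P} (h : E1 ≤ T) {s : P} (hs : s ∈ T) (hs1 : s ∉ E1) : T = ⊤ := by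
  rw [eq_top_iff]
  intro y _
  have h1 : (s ^ (y.x1 * s.x1).val)⁻¹ * y ∈ E1 := by
    rw [mem_E1, mul_x1, inv_x1, pow_x1, zmod3_cast]
    rw [mem_E1] at hs1
    have h9' : s.x1 * s.x1 = 1 := by
      revert hs1
      generalize s.x1 = a
      revert a
      decide
    linear_combination -y.x1 * h9'
  have h2 := mul_mem (pow_mem hs (y.x1 * s.x1).val) (h h1)
  rwa [mul_inv_cancel_left] at h2

/-- commutators of `E1` generate `N5` modulo `Z2` -/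
theorem N5_le_of {H : Subgroup P} (h2 : Z2 ≤ H) (hc : ∀ x ∈ E1, ∀ y ∈ E1, ce x y ∈ H) : N5 ≤ H := by
  intro n hn
  have c1 := hc u5 rfl u2 rfl
  have c2 := hc u4 rfl u2 rfl
  have c3 := hc u5 rfl u4 rfl
  have hw := mul_mem (mul_mem (pow_mem c1 n.x6.val) (pow_mem c2 (-n.x7).val)) (pow_mem c3 n.x8.val)
  set w := ce u5 u2 ^ n.x6.val * ce u4 u2 ^ (-n.x7).val * ce u5 u4 ^ n.x8.val with hwd
  have hwN : w ∈ N5 := mul_mem (mul_mem (pow_mem (ce_mem _ _) _) (pow_mem (ce_mem _ _) _)) (pow_mem (ce_mem _ _) _)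
  have e1 : w.x6 = n.x6 := by
    rw [hwd, N5_mul_eq (mul_mem (pow_mem (ce_mem _ _) _) (pow_mem (ce_mem _ _) _)) (pow_mem (ce_mem _ _) _),
      N5_mul_eq (pow_mem (ce_mem _ _) _) (pow_mem (ce_mem _ _) _), N5_pow (ce_mem _ _), N5_pow (ce_mem _ _),
      N5_pow (ce_mem _ _), zmod3_cast, zmod3_cast, zmod3_cast]
    simp [ce, u5, u2, u4]
  have e2 : w.x7 = n.x7 := by
    rw [hwd, N5_mul_eq (mul_mem (pow_mem (ce_mem _ _) _) (pow_mem (ce_mem _ _) _)) (pow_mem (ce_mem _ _) _),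
      N5_mul_eq (pow_mem (ce_mem _ _) _) (pow_mem (ce_mem _ _) _), N5_pow (ce_mem _ _), N5_pow (ce_mem _ _),
      N5_pow (ce_mem _ _), zmod3_cast, zmod3_cast, zmod3_cast]
    simp [ce, u5, u2, u4]
  have e3 : w.x8 = n.x8 := by
    rw [hwd, N5_mul_eq (mul_mem (pow_mem (ce_mem _ _) _) (pow_mem (ce_mem _ _) _)) (pow_mem (ce_mem _ _) _),
      N5_mul_eq (pow_mem (ce_mem _ _) _) (pow_mem (ce_mem _ _) _), N5_pow (ce_mem _ _), N5_pow (ce_mem _ _),
      N5_pow (ce_mem _ _), zmod3_cast, zmod3_cast, zmod3_cast]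
    simp [ce, u5, u2, u4]
  have hz : w⁻¹ * n ∈ Z2 := by
    rw [N5_inv hwN, N5_mul_eq ⟨rfl, rfl, rfl, rfl, rfl⟩ hn, e1, e2, e3]
    refine ⟨rfl, rfl, rfl, rfl, rfl, ?_, ?_, ?_⟩ <;> simp
  have h3 := mul_mem hw (h2 hz)
  rwa [mul_inv_cancel_left] at h3

theorem mem_of_sq {H : Subgroup P} {x : P} (h : x * x ∈ H) : x ∈ H := by
  have h1 : x = (x * x) ^ 29525 := by
    rw [← pow_two, ← pow_mul, show 2 * 29525 = 3 ^ 10 + 1 by norm_num, pow_succ, pow3_10, one_mul]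
  rw [h1]
  exact pow_mem h _

/-- one step: if `j` inverts `x` modulo `K` and fixes it modulo `T` then `x ∈ K T` -/
theorem step_mem {K T : Subgroup P} (hT : T.Normal) {x jx : P} (h1 : jx * x ∈ K) (h2 : x⁻¹ * jx ∈ T) : x ∈ K ⊔ T := by
  apply mem_of_sq
  have h3 : x * x = jx * x * (x⁻¹ * (x⁻¹ * jx)⁻¹ * x⁻¹⁻¹) := by group
  rw [h3]
  exact mul_mem (mem_sup_left h1) (mem_sup_right (hT.conj_mem _ (inv_mem h2) _))

theorem N5_normal : N5.Normal := ⟨fun n hn g => by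
  rw [N5_conj' n g hn]
  exact cx_mem _ _⟩

theorem E1_le_of {T : Subgroup P} (hT : T.Normal) (h2 : Z2 ≤ T) {j : P → P}
    (hs : (∀ x ∈ E1, j x * x ∈ Z6) ∧ (∀ x ∈ Z6, j x * x ∈ Y7) ∧ (∀ x ∈ Y7, j x * x ∈ X6) ∧ (∀ x ∈ X6, j x * x ∈ N5))
    (hj : ∀ x ∈ E1, x⁻¹ * j x ∈ T) : E1 ≤ T := by
  have h5 : X6 ≤ N5 ⊔ T := fun x hx => step_mem hT (hs.2.2.2 x hx) (hj x (X6_le_E1 hx))
  have h4 : Y7 ≤ N5 ⊔ T := fun x hx =>
    (sup_le h5 le_sup_right) (step_mem hT (hs.2.2.1 x hx) (hj x (Y7_le_E1 hx)))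
  have h3 : Z6 ≤ N5 ⊔ T := fun x hx =>
    (sup_le h4 le_sup_right) (step_mem hT (hs.2.1 x hx) (hj x (Z6_le_E1 hx)))
  have h1 : E1 ≤ N5 ⊔ T := fun x hx =>
    (sup_le h3 le_sup_right) (step_mem hT (hs.1 x hx) (hj x hx))
  have hN : N5 ≤ T := by
    apply N5_le_of h2
    intro x hx y hy
    have hxs := h1 hx
    have hys := h1 hy
    rw [← SetLike.mem_coe, mul_normal] at hxs hys
    obtain ⟨n, hn, t, ht, rfl⟩ := hxs
    obtain ⟨m, hm, r, hr, rfl⟩ := hys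
    have h6 := E1_mul _ _ hx hy
    have h7 : ce (n * t) (m * r) = (m * r * (n * t))⁻¹ * (n * t * (m * r)) := by
      rw [h6, inv_mul_cancel_left]
    show ce (n * t) (m * r) ∈ T
    rw [h7]
    -- modulo `T`
    rw [← QuotientGroup.eq]
    simp only [QuotientGroup.mk_mul]
    rw [(QuotientGroup.eq_one_iff t).2 ht, (QuotientGroup.eq_one_iff r).2 hr, mul_one, mul_one,
      ← QuotientGroup.mk_mul, ← QuotientGroup.mk_mul, N5_commute hn hm]
  exact h1.trans (sup_le hN le_rfl)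

/-- the automorphisms of `E1` acting trivially modulo `T` -/
def MT (F : FusionSystem (⊤ : Subgroup P)) (T : Subgroup P) : Set (P → P) :=
  {f | f ∈ AF F E1 ∧ ∀ x ∈ E1, x⁻¹ * f x ∈ T}

theorem E1_normal' (s x : P) (hx : x ∈ E1) : s * x * s⁻¹ ∈ E1 := by
  rw [mem_E1] at hx ⊢
  rw [mul_x1, mul_x1, inv_x1, hx]
  ring

theorem AF_conj (s : P) : (fun x => s * x * s⁻¹) ∈ AF F E1 :=
  ⟨mp_conj F le_top (mem_top s), fun x hx => E1_normal' s x hx⟩

theorem top_of_not_le (hF : F.IsSaturated 3) (hcore : F.core = ⊥) (hT : F.StronglyClosed T) (hne : T ≠ ⊥)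
    (h : ¬ T ≤ E1) : T = ⊤ := by
  obtain ⟨s, hsT, hs⟩ := SetLike.not_le_iff_exists.1 h
  have hn := normal_of_closed hT
  have h2 := Z2_le_T hF hcore hT hne
  obtain ⟨a, ha, ha1⟩ := exists_move hF hcore
  obtain ⟨b, hb, hab⟩ := AF.exists_inv ha
  have hMc : ∀ f ∈ MT F T, ∀ g ∈ MT F T, (fun x => f (g x)) ∈ MT F T := by
    intro f hf g hg
    refine ⟨⟨hg.1.1.comp hf.1.1 hg.1.2, fun x hx => hf.1.2 _ (hg.1.2 x hx)⟩, fun x hx => ?_⟩
    have h3 := mul_mem (hg.2 x hx) (hf.2 (g x) (hg.1.2 x hx))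
    have h4 : x⁻¹ * g x * ((g x)⁻¹ * f (g x)) = x⁻¹ * f (g x) := by group
    rwa [h4] at h3
  have hMconj : ∀ f ∈ MT F T, ∀ a b : P → P, Mp F E1 a → Mp F E1 b → (∀ x ∈ E1, a x ∈ E1) → (∀ x ∈ E1, b x ∈ E1) →
      (∀ x ∈ E1, b (a x) = x ∧ a (b x) = x) → (fun x => a (f (b x))) ∈ MT F T := by
    intro f hf a b ha hb ha' hb' hab
    have hfb : ∀ x ∈ E1, f (b x) ∈ E1 := fun x hx => hf.1.2 _ (hb' x hx)
    refine ⟨⟨(hb.comp hf.1.1 hb').comp ha hfb, fun x hx => ha' _ (hfb x hx)⟩, fun x hx => ?_⟩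
    have h3 := hf.2 (b x) (hb' x hx)
    have h4 : x⁻¹ * a (f (b x)) = a ((b x)⁻¹ * f (b x)) := by
      rw [ha.mul (inv_mem (hb' x hx)) (hfb x hx), ha.inv (hb' x hx), (hab x hx).2]
    show x⁻¹ * a (f (b x)) ∈ T
    rw [h4]
    exact mp_mem_of_stronglyClosed hT ha (mul_mem (inv_mem (hb' x hx)) (hfb x hx)) h3
  have hsM : (fun x => s * x * s⁻¹) ∈ MT F T := by
    refine ⟨AF_conj s, fun x hx => ?_⟩
    have h3 : x⁻¹ * (s * x * s⁻¹) = (x⁻¹ * s * x⁻¹⁻¹) * s⁻¹ := by group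
    show x⁻¹ * (s * x * s⁻¹) ∈ T
    rw [h3]
    exact mul_mem (hn.conj_mem s hsT _) (inv_mem hsT)
  obtain ⟨m, hm, hm2⟩ := exists_neg (M := MT F T) (fun f hf => AF_Z2map hf.1) hMc
    ⟨⟨mp_id F le_top, fun _ hx => hx⟩, fun x _ => by simp⟩ hs hsM (AF_Z2map ha) (AF_Z2map hb)
    (fun x hx => (hab x (Z2_le_E1 hx)).2) (fun x hx => (hab x (Z2_le_E1 hx)).1) ha1
    (fun f hf => hMconj f hf a b ha.1 hb.1 ha.2 hb.2 hab)
  obtain ⟨j, hj, hjM, hj2⟩ := frattini_ext isPGroup_top hF (E := E1) (U := Z2) le_top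
    (fun s _ x hx => E1_normal' s x hx) Z2_le_E1 (fun f hf hf' x hx => E1_Z2 ⟨hf, hf'⟩ hx) (MT F T) (fun f hf => hf.1)
    hMc (fun f hf g hg => ⟨⟨hf.1.1.congr hg, fun x hx => by rw [hg x hx]; exact hf.1.2 x hx⟩, fun x hx => by
      rw [hg x hx]; exact hf.2 x hx⟩)
    (fun f hf => by
      obtain ⟨g, hg, hfg⟩ := AF.exists_inv hf.1
      refine ⟨g, ⟨hg, fun x hx => ?_⟩, hfg⟩
      have h3 := hf.2 (g x) (hg.2 x hx)
      rw [(hfg x hx).2] at h3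
      have h4 : x⁻¹ * g x = ((g x)⁻¹ * x)⁻¹ := by group
      rw [h4]
      exact inv_mem h3)
    hMconj hm hm2
  have hs4 := signs_neg j (top_mul hj) (fun x y hxy => hj.inj (mem_top x) (mem_top y) hxy) hj2
  exact top_of_E1_le (E1_le_of hn h2 hs4 hjM.2) hsT hs

end Cfsg.Agent.H776.ThS
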