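import Cfsg.Agent.H776.ThFusB

/-!
Strongly closed subgroups contained in `E1`.
-/

set_option autoImplicit false
set_option linter.style.longLine false

namespace Cfsg.Agent.H776.ThS

open Subgroup Cfsg Cfsg.Agent.H752

variable {F : FusionSystem (⊤ : Subgroup P)} {T : Subgroup P}

/-! ### characterizations -/

theorem N5_of {x : P} (hx : x ∈ E1) (h : ∀ y ∈ E1, ce x y ∈ Z2) : x ∈ N5 := by
  have h2 := h u2 rfl
  have h5 := h u5 rfl
  have a5 := h2.2.2.2.2.2.1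
  have a4 := h2.2.2.2.2.2.2.1
  have b2 := h5.2.2.2.2.2.1
  have b3 := h5.2.2.2.2.2.2.1
  simp [ce, u2, u5] at a5 a4 b2 b3
  exact ⟨hx, b2, b3, a4, a5⟩

theorem ce_N5 {x y : P} (hx : x ∈ N5) (hy : y ∈ E1) : ce x y ∈ Z2 := by
  have h1 := E1_mul x y (N5_le_E1 hx) hy
  obtain ⟨a1, a2, a3, a4, a5⟩ := hx
  refine ⟨rfl, rfl, rfl, rfl, rfl, ?_, ?_, ?_⟩ <;> simp [ce, a2, a3, a4, a5]

theorem E1_N5 {f : P → P} (hf : f ∈ AF F E1) {x : P} (hx : x ∈ N5) : f x ∈ N5 := by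
  have hxE := N5_le_E1 hx
  apply N5_of (hf.2 x hxE)
  intro y hy
  obtain ⟨y, hy', rfl⟩ := hf.1.surj hf.2 hy
  have h1 := E1_mul x y hxE hy'
  have h2 := E1_mul (f x) (f y) (hf.2 x hxE) hy
  have h3 := congrArg f h1
  have hc : ce x y ∈ E1 := N5_le_E1 (ce_mem x y)
  rw [hf.1.mul (mul_mem hy' hxE) hc, hf.1.mul hxE hy', hf.1.mul hy' hxE, h2, mul_right_inj] at h3
  rw [h3]
  exact E1_Z2 hf (ce_N5 hx hy')

theorem Z3_le_of {H : Subgroup P} (h2 : Z2 ≤ H) {x : P} (hx : x ∈ Z3) (hx2 : x ∉ Z2) (hxH : x ∈ H) : Z3 ≤ H := by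
  have h8 : x.x8 ≠ 0 := fun h => hx2 ⟨hx.1, hx.2.1, hx.2.2.1, hx.2.2.2.1, hx.2.2.2.2.1, hx.2.2.2.2.2.1, hx.2.2.2.2.2.2, h⟩
  intro y hy
  have h9' : x.x8 * x.x8 = 1 := by
    revert h8
    generalize x.x8 = a
    revert a
    decide
  have hxN := Z3_le_N5 hx
  have hyN := Z3_le_N5 hy
  have hz : (x ^ (y.x8 * x.x8).val)⁻¹ * y ∈ Z2 := by
    rw [N5_pow hxN, zmod3_cast, N5_inv ⟨rfl, rfl, rfl, rfl, rfl⟩, N5_mul_eq ⟨rfl, rfl, rfl, rfl, rfl⟩ hyN]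
    refine ⟨rfl, rfl, rfl, rfl, rfl, ?_, ?_, ?_⟩
    · simp [hx.2.2.2.2.2.1, hy.2.2.2.2.2.1]
    · simp [hx.2.2.2.2.2.2, hy.2.2.2.2.2.2]
    · show -(y.x8 * x.x8 * x.x8) + y.x8 = 0
      linear_combination -y.x8 * h9'
  have h3 := mul_mem (pow_mem hxH (y.x8 * x.x8).val) (h2 hz)
  rwa [mul_inv_cancel_left] at h3

/-- commutator of an element of `N5` with `u1` -/
theorem comm_u1 {H : Subgroup P} (hH : H.Normal) {c : P} (hc : c ∈ H) (hcN : c ∈ N5) :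
    (⟨0, 0, 0, 0, 0, 0, c.x6, -c.x7 + c.x6, 0, c.x9⟩ : P) ∈ H := by
  have h1 := hH.conj_mem c hc u1⁻¹
  rw [inv_inv, N5_conj c u1 hcN] at h1
  have h2 := mul_mem (inv_mem hc) h1
  rw [N5_inv hcN, N5_mul_eq ⟨rfl, rfl, rfl, rfl, rfl⟩ (cx_mem _ _)] at h2
  convert h2 using 1
  ext <;> simp [cx, u1]
  ring

theorem Z3_le_of_N5 {H : Subgroup P} (hH : H.Normal) (h2 : Z2 ≤ H) {c : P} (hc : c ∈ H) (hcN : c ∈ N5) (hc2 : c ∉ Z2) :
    Z3 ≤ H := by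
  have key : ∀ c : P, c ∈ H → c ∈ N5 → c ∉ Z2 → c.x6 = 0 → Z3 ≤ H := by
    intro c hc hcN hc2 h6
    by_cases h7 : c.x7 = 0
    · exact Z3_le_of h2 ⟨hcN.1, hcN.2.1, hcN.2.2.1, hcN.2.2.2.1, hcN.2.2.2.2, h6, h7⟩ hc2 hc
    · have h := comm_u1 hH hc hcN
      refine Z3_le_of h2 ⟨rfl, rfl, rfl, rfl, rfl, rfl, h6⟩ (fun h' => h7 ?_) h
      have h8 : -c.x7 + c.x6 = 0 := h'.2.2.2.2.2.2.2
      rw [h6] at h8
      linear_combination -h8
  by_cases h6 : c.x6 = 0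
  · exact key c hc hcN hc2 h6
  · have h := comm_u1 hH hc hcN
    exact key _ h ⟨rfl, rfl, rfl, rfl, rfl⟩ (fun h' => h6 h'.2.2.2.2.2.2.1) rfl

theorem N5_le_of' {H : Subgroup P} (hH : H.Normal) (h3 : Z3 ≤ H) {v : P} (hv : v ∈ H) (hvN : v ∈ N5) (h6 : v.x6 ≠ 0) :
    N5 ≤ H := by
  intro n hn
  have hw := comm_u1 hH hv hvN
  set w : P := ⟨0, 0, 0, 0, 0, 0, v.x6, -v.x7 + v.x6, 0, v.x9⟩ with hwd
  have hwN : w ∈ N5 := ⟨rfl, rfl, rfl, rfl, rfl⟩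
  have h9' : v.x6 * v.x6 = 1 := by
    revert h6
    generalize v.x6 = a
    revert a
    decide
  set i := n.x6 * v.x6 with hi
  set j := (n.x7 - i * v.x7) * v.x6 with hj
  have hm := mul_mem (pow_mem hv i.val) (pow_mem hw j.val)
  have e : v ^ i.val * w ^ j.val = ⟨0, 0, 0, 0, 0, i * v.x6 + j * 0, i * v.x7 + j * v.x6, i * v.x8 + j * (-v.x7 + v.x6),
      i * v.x9 + j * 0, i * v.x10 + j * v.x9⟩ := by
    rw [N5_pow hvN, zmod3_cast, N5_pow hwN, zmod3_cast, N5_mul_eq ⟨rfl, rfl, rfl, rfl, rfl⟩ ⟨rfl, rfl, rfl, rfl, rfl⟩]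
  have hz : (v ^ i.val * w ^ j.val)⁻¹ * n ∈ Z3 := by
    rw [e, N5_inv ⟨rfl, rfl, rfl, rfl, rfl⟩, N5_mul_eq ⟨rfl, rfl, rfl, rfl, rfl⟩ hn]
    refine ⟨rfl, rfl, rfl, rfl, rfl, ?_, ?_⟩
    · show -(i * v.x6 + j * 0) + n.x6 = 0
      rw [hi]
      linear_combination -n.x6 * h9'
    · show -(i * v.x7 + j * v.x6) + n.x7 = 0
      rw [hj]
      linear_combination -(n.x7 - i * v.x7) * h9'
  have h4 := mul_mem hm (h3 hz)
  rwa [mul_inv_cancel_left] at h4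

/-- **Claim (N)**: a normal subgroup of `P` between `Z3` and `N5` invariant under `Aut_F(E1)` is `N5` -/
theorem N5_le_of_inv (hF : F.IsSaturated 3) (hcore : F.core = ⊥) {U : Subgroup P} (hU : U.Normal) (h3 : Z3 ≤ U)
    (hUN : U ≤ N5) (hinv : ∀ f ∈ AF F E1, ∀ x ∈ U, f x ∈ U) : N5 ≤ U := by
  by_cases h6 : ∀ v ∈ U, v.x6 = 0
  · exfalso
    obtain ⟨a, ha, ha1⟩ := exists_move hF hcore
    obtain ⟨b, hb, hab⟩ := AF.exists_inv ha
    have h5E : u5 ∈ E1 := rfl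
    set y := a u5 with hy
    have hyE : y ∈ E1 := ha.2 u5 h5E
    -- `y` commutes with `Z3`
    have hyc : ∀ w ∈ Z3, w * y = y * w := by
      intro w hw
      have hwE : w ∈ E1 := N5_le_E1 (Z3_le_N5 hw)
      have hw' := hinv b hb w (h3 hw)
      have hc : b w * u5 = u5 * b w := by
        rw [N5_comm (hUN hw')]
        have h0 := h6 _ hw'
        obtain ⟨a1, a2, a3, a4, a5⟩ := hUN hw'
        ext <;> simp [cx, u5, h0, a1, a2, a3, a4, a5]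
      have h4 := congrArg a hc
      rw [ha.1.mul (hb.2 w hwE) h5E, ha.1.mul h5E (hb.2 w hwE), (hab w hwE).2] at h4
      exact h4
    have h8 := (N5_comm (Z3_le_N5 u8_mem)).1 (hyc u8 u8_mem)
    have a2 := congrArg V.x9 h8
    have a3 := congrArg V.x10 h8
    simp only [cx, u8] at a2 a3
    rw [mem_E1] at hyE
    rw [hyE] at a2 a3
    have y2 : y.x2 = 0 := by linear_combination -a2
    have y3 : y.x3 = 0 := by linear_combination -a3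
    -- commutators with `N5` lie in `a Z1`
    have hcm : ∀ n ∈ N5, ∃ k : ℕ, n * y = y * n * a u10 ^ k := by
      intro n hn
      have hbn := E1_N5 hb hn
      have h4 := N5_mul (b n) u5 hbn
      have h5 : cx (b n) u5 = b n * ⟨0, 0, 0, 0, 0, 0, 0, 0, 0, (b n).x6⟩ := by
        rw [N5_mul_eq hbn ⟨rfl, rfl, rfl, rfl, rfl⟩]
        ext <;> simp [cx, u5]
      have h6' : (⟨0, 0, 0, 0, 0, 0, 0, 0, 0, (b n).x6⟩ : P) = u10 ^ ((b n).x6).val :=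
        mem_Z1_pow ⟨rfl, rfl, rfl, rfl, rfl, rfl, rfl, rfl, rfl⟩
      rw [h5, h6'] at h4
      have h7 := congrArg a h4
      have hnE := N5_le_E1 hn
      have h10E : u10 ∈ E1 := rfl
      rw [ha.1.mul (hb.2 n hnE) h5E, ha.1.mul h5E (mul_mem (hb.2 n hnE) (pow_mem h10E _)),
        ha.1.mul (hb.2 n hnE) (pow_mem h10E _), (hab n hnE).2, ha.1.pow h10E, ← mul_assoc] at h7
      exact ⟨_, h7⟩
    have hau := E1_Z2 ha (Z1_le_Z2 u10_mem)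
    have hau9 : (a u10).x9 ≠ 0 := fun h => ha1 ⟨hau.1, hau.2.1, hau.2.2.1, hau.2.2.2.1, hau.2.2.2.2.1, hau.2.2.2.2.2.1,
      hau.2.2.2.2.2.2.1, hau.2.2.2.2.2.2.2, h⟩
    have hker : ∀ n ∈ N5, (cx n y).x9 = n.x9 → cx n y = n := by
      intro n hn h9
      obtain ⟨k, hk⟩ := hcm n hn
      rw [N5_mul n y hn, mul_assoc, mul_right_inj, N5_pow (Z2_le_N5 hau), N5_mul_eq hn ⟨rfl, rfl, rfl, rfl, rfl⟩] at hk
      have h10 := congrArg V.x9 hk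
      have h11 : (k : ZMod 3) * (a u10).x9 = 0 := by
        rw [h9] at h10
        have h12 : n.x9 = n.x9 + (k : ZMod 3) * (a u10).x9 := h10
        linear_combination -h12
      have hk0 : (k : ZMod 3) = 0 := (mul_eq_zero.1 h11).resolve_right hau9
      rw [hk, hk0]
      obtain ⟨b1, b2, b3, b4, b5⟩ := hn
      ext <;> simp [b1, b2, b3, b4, b5]
    have k7 := hker u7 ⟨rfl, rfl, rfl, rfl, rfl⟩ (by simp [cx, u7, hyE, y3])
    have k7' := congrArg V.x10 k7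
    simp only [cx, u7, hyE, y2, y3] at k7'
    have y4 : y.x4 = 0 := by linear_combination -k7'
    have k6 := hker u6 ⟨rfl, rfl, rfl, rfl, rfl⟩ (by simp [cx, u6, hyE, y2, y4])
    have k6' := congrArg V.x10 k6
    simp only [cx, u6, hyE, y2, y3, y4] at k6'
    have y5 : y.x5 = 0 := by linear_combination k6'
    have hyN : y ∈ N5 := ⟨hyE, y2, y3, y4, y5⟩
    have h13 := E1_N5 hb hyN
    rw [hy, (hab u5 h5E).1] at h13
    have h14 : (1 : ZMod 3) = 0 := h13.2.2.2.2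
    exact absurd h14 (by decide)
  · push Not at h6
    obtain ⟨v, hv, h6⟩ := h6
    exact N5_le_of' hU h3 hv (hUN hv) h6

end Cfsg.Agent.H776.ThS
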