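import Cfsg.Agent.H776.ThFusC
import Cfsg.Agent.H802.FusNorm
import Cfsg.Agent.H993.ExistsDet

/-!
Strongly closed subgroups contained in `E1`: the first case, and the determinant lemma for the second case.
-/

set_option autoImplicit false
set_option linter.style.longLine false

namespace Cfsg.Agent.H776.ThS

open Subgroup Cfsg Cfsg.Agent.H752

variable {F : FusionSystem (⊤ : Subgroup P)} {T : Subgroup P}

/-- a strongly closed subgroup containing `Z3` and commuting with `Z3`, contained in `E1`, is abelian -/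
theorem abelian_of (hF : F.IsSaturated 3) (hcore : F.core = ⊥) (hT : F.StronglyClosed T) (h3 : Z3 ≤ T)
    (hTE : T ≤ E1) (hc : ∀ t ∈ T, ∀ z ∈ Z3, t * z = z * t) : ∀ x ∈ T, ∀ y ∈ T, x * y = y * x := by
  have hn := normal_of_closed hT
  let U : Subgroup P := T ⊓ centralizer (T : Set P) ⊓ N5
  have hU : U.Normal := by
    have : (centralizer (T : Set P)).Normal := inferInstance
    have h5 := N5_normal
    exact inferInstance
  have h3U : Z3 ≤ U := by
    intro z hz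
    refine ⟨⟨h3 hz, ?_⟩, Z3_le_N5 hz⟩
    show z ∈ centralizer (T : Set P)
    rw [mem_centralizer_iff]
    intro t ht
    exact hc t ht z hz
  have hinv : ∀ f ∈ AF F E1, ∀ x ∈ U, f x ∈ U := by
    intro f hf x hx
    have hxE : x ∈ E1 := N5_le_E1 hx.2
    have hxc : x ∈ centralizer (T : Set P) := hx.1.2
    refine ⟨⟨mp_mem_of_stronglyClosed hT hf.1 hxE hx.1.1, ?_⟩, E1_N5 hf hx.2⟩
    show f x ∈ centralizer (T : Set P)
    rw [mem_centralizer_iff] at hxc ⊢
    intro t ht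
    obtain ⟨t, ht', rfl⟩ := hf.1.surj hf.2 (hTE ht)
    have ht2 : t ∈ T := mp_mem_of_stronglyClosed' hT hf.1 ht' ht
    rw [← hf.1.mul ht' hxE, hxc t ht2, hf.1.mul hxE ht']
  have hN := N5_le_of_inv hF hcore hU h3U inf_le_right hinv
  -- `N5` is central in `T`, so `T ≤ N5`
  have hTN : T ≤ N5 := by
    intro t ht
    have hcm : ∀ n ∈ N5, cx n t = n := by
      intro n hn5
      have h := (hN hn5).1.2
      have h' : n ∈ centralizer (T : Set P) := h
      rw [mem_centralizer_iff] at h'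
      exact (N5_comm hn5).1 (h' t ht).symm
    have ht1 := hTE ht
    rw [mem_E1] at ht1
    have h8 := hcm u8 (Z3_le_N5 u8_mem)
    have h7 := hcm u7 ⟨rfl, rfl, rfl, rfl, rfl⟩
    have h6 := hcm u6 ⟨rfl, rfl, rfl, rfl, rfl⟩
    have a2 := congrArg V.x9 h8
    have a3 := congrArg V.x10 h8
    have a4 := congrArg V.x10 h7
    have a5 := congrArg V.x10 h6
    simp only [cx, u8, u7, u6, ht1] at a2 a3 a4 a5
    have b2 : t.x2 = 0 := by linear_combination -a2
    have b3 : t.x3 = 0 := by linear_combination -a3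
    rw [b2, b3] at a4 a5
    have b4 : t.x4 = 0 := by linear_combination -a4
    rw [b4] at a5
    have b5 : t.x5 = 0 := by linear_combination a5
    exact ⟨ht1, b2, b3, b4, b5⟩
  exact fun x hx y hy => N5_commute (hTN hx) (hTN hy)

/-- **Case A** excludes strongly closed subgroups inside `E1` -/
theorem caseA_false (hF : F.IsSaturated 3) (hcore : F.core = ⊥) (hA : CaseA F) (hT : F.StronglyClosed T) (hne : T ≠ ⊥)
    (hTE : T ≤ E1) : False := by
  have hn := normal_of_closed hT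
  have h2 := Z2_le_T hF hcore hT hne
  have h2E : Z2 ≤ E2 := fun x hx => hx.2.1
  obtain ⟨a, ha, ha9⟩ := hA.mov
  obtain ⟨b, hb, hab⟩ := AF.exists_inv ha
  have h9T := mp_mem_of_stronglyClosed hT ha.1 (h2E u9_mem) (h2 u9_mem)
  have h3 : Z3 ≤ T := Z3_le_of h2 (hA.le a ha u9 u9_mem) ha9 h9T
  -- `T ∩ E2 ≤ Y7`
  have hY : ∀ t ∈ T, t ∈ E2 → ∀ z ∈ Z3, t * z = z * t := by
    intro t ht htE
    have h4 : Z3 ≤ centralizer {t} := by
      have h5 : ∀ z ∈ Z2, ∀ t ∈ T, z * t = t * z := fun z hz t ht => Z2_comm hz (hTE ht)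
      refine Z3_le_of (fun z hz => ?_) (hA.le a ha u9 u9_mem) ha9 ?_
      · rw [mem_centralizer_singleton_iff]
        exact h5 z hz t ht
      · rw [mem_centralizer_singleton_iff]
        have hbt := hb.2 t htE
        have hbT := mp_mem_of_stronglyClosed hT hb.1 htE ht
        have h6 := congrArg a (h5 u9 u9_mem (b t) hbT)
        rw [ha.1.mul (h2E u9_mem) hbt, ha.1.mul hbt (h2E u9_mem), (hab t htE).2] at h6
        exact h6
    intro z hz
    have h7 := h4 hz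
    rw [mem_centralizer_singleton_iff] at h7
    exact h7.symm
  have hY7 : ∀ t ∈ T, t ∈ E2 → t.x3 = 0 := by
    intro t ht htE
    have h8 := (N5_comm (Z3_le_N5 u8_mem)).1 (hY t ht htE u8 u8_mem).symm
    have ht1 := hTE ht
    rw [mem_E1] at ht1
    have a3 := congrArg V.x10 h8
    simp only [cx, u8, ht1] at a3
    linear_combination -a3
  have hTE2 : T ≤ E2 := by
    intro t ht
    rw [mem_E2]
    have hc : (u1 * t)⁻¹ * (t * u1) ∈ T := by
      have h4 : (u1 * t)⁻¹ * (t * u1) = t⁻¹ * (u1⁻¹ * t * u1⁻¹⁻¹) := by group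
      rw [h4]
      exact mul_mem (inv_mem ht) (hn.conj_mem t ht _)
    set c := (u1 * t)⁻¹ * (t * u1) with hcd
    have h5 : t * u1 = u1 * t * c := by rw [hcd, mul_inv_cancel_left]
    have hc2 : c ∈ E2 := by
      rw [mem_E2]
      have h6 := congrArg V.x2 h5
      rw [mul_x2, mul_x2, mul_x2] at h6
      linear_combination -h6
    have hc1 : c.x1 = 0 := hTE hc
    have hc3 := hY7 c hc hc2
    have h6 := congrArg V.x3 h5
    rw [mul_x3, mul_x3, mul_x3, hc1, hc3] at h6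
    simp [u1] at h6
    exact h6
  exact not_closed hF hcore (abelian_of hF hcore hT h3 hTE fun t ht => hY t ht (hTE2 ht)) hne hT

/-! ### Case B -/

/-- in case B a strongly closed subgroup contains `N5` -/
theorem N5_le_T (hF : F.IsSaturated 3) (hcore : F.core = ⊥) {Q : Subgroup P} (hB : CaseB F Q) (hT : F.StronglyClosed T)
    (hne : T ≠ ⊥) : N5 ≤ T := by
  have hn := normal_of_closed hT
  have h2 := Z2_le_T hF hcore hT hne
  by_cases hTE : T ≤ E1
  swap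
  · rw [top_of_not_le hF hcore hT hne hTE]
    exact le_top
  obtain ⟨a, ha, w, hw, haw⟩ := hB.mov
  have hw1 : w ≠ 1 := by
    rintro rfl
    apply haw
    rw [ha.1.one]
    exact one_mem _
  have hv := (hB.rk a ha ⟨w, hw, haw⟩ w hw hw1).1
  have hvT : a w ∈ T := mp_mem_of_stronglyClosed hT ha.1 (hB.ge hw) (h2 hw)
  have hvE := hTE hvT
  -- some commutator is outside `Z2`
  have hex : ∃ y ∈ E1, ce (a w) y ∉ Z2 := by
    by_contra hcon
    push Not at hcon
    exact hv (N5_of hvE hcon)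
  obtain ⟨y, hy, hc⟩ := hex
  have hcT : ce (a w) y ∈ T := by
    have h4 := E1_mul (a w) y hvE hy
    have h5 : ce (a w) y = (y * a w)⁻¹ * (a w * y) := by rw [h4, inv_mul_cancel_left]
    rw [h5]
    have h6 : (y * a w)⁻¹ * (a w * y) = (a w)⁻¹ * (y⁻¹ * a w * y⁻¹⁻¹) := by group
    rw [h6]
    exact mul_mem (inv_mem hvT) (hn.conj_mem _ hvT _)
  have h3 := Z3_le_of_N5 hn h2 hcT (ce_mem _ _) hc
  have hU : (T ⊓ N5).Normal := by
    have h5 := N5_normal
    exact inferInstance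
  exact (N5_le_of_inv hF hcore hU (le_inf h3 Z3_le_N5) inf_le_right fun f hf x hx =>
    ⟨mp_mem_of_stronglyClosed hT hf.1 (N5_le_E1 hx.2) hx.1, E1_N5 hf hx.2⟩).trans inf_le_left

/-- `Aut_E(Z2)` has no elements of order 3 when `T` centralizes `Z2` -/
theorem no_three {E : FusionSystem T} (hE : E.IsSaturated 3) (h2 : Z2 ≤ T) (hTE : T ≤ E1) {f : P → P}
    (hf : Mp E Z2 f) (hf2 : ∀ x ∈ Z2, f x ∈ Z2) (h3 : ∀ x ∈ Z2, f (f (f x)) = x) : ∀ x ∈ Z2, f x = x := by
  have hS : IsPGroup 3 T := isPGroup_P.to_subgroup T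
  have hnorm : FusionSystem.normalizerIn T Z2 = T := by
    refine le_antisymm inf_le_left (le_inf le_rfl fun t ht => ?_)
    rw [mem_normalizer_iff]
    intro z
    constructor
    · intro hz
      rw [← Z2_comm hz (hTE ht), mul_inv_cancel_right]
      exact hz
    · intro hz
      have h4 := Z2_comm hz (hTE (inv_mem ht))
      have h5 : z = t⁻¹ * (t * z * t⁻¹) * t⁻¹⁻¹ := by group
      rw [h5, ← h4, mul_inv_cancel_right]
      exact hz
  have hfn : E.IsFullyNormalized Z2 := by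
    refine ⟨h2, fun Q _ => ?_⟩
    rw [hnorm]
    exact card_le_of_le inf_le_left
  have hfa := H802.isFullyAutomized_of_isFullyNormalized hS hE hfn
  obtain ⟨R, hR⟩ := hfa.2
  have hbot : autInducedBy T Z2 = ⊥ := by
    rw [eq_bot_iff]
    intro β hβ
    rw [H802.mem_autInducedBy_iff] at hβ
    obtain ⟨g, hg, h4⟩ := hβ
    rw [mem_bot]
    apply MulEquiv.ext
    intro x
    apply Subtype.ext
    rw [h4 x, ← Z2_comm x.2 (hTE hg), mul_inv_cancel_right]
    rfl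
  obtain ⟨α, hα, h4⟩ := hf.exists_aut hf2
  have hα3 : α ^ 3 = 1 := by
    apply MulEquiv.ext
    intro x
    apply Subtype.ext
    have h5 := h3 x x.2
    rw [h4 x x.2] at h5
    have h6 : f ((α x : Z2) : P) = ((α (α x) : Z2) : P) := h4 _ (α x).2
    have h7 : f ((α (α x) : Z2) : P) = ((α (α (α x)) : Z2) : P) := h4 _ (α (α x)).2
    have h8 : (⟨(x : P), x.2⟩ : Z2) = x := rfl
    rw [h8, h6, h7] at h5
    exact h5
  have hα1 : α = 1 := by
    have hP : IsPGroup 3 (zpowers (⟨α, hα⟩ : E.autGroup Z2)) := by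
      rw [IsPGroup.iff_card]
      have h9 : orderOf (⟨α, hα⟩ : E.autGroup Z2) ∣ 3 := by
        apply orderOf_dvd_of_pow_eq_one
        exact Subtype.ext hα3
      rw [Nat.card_zpowers]
      rcases (Nat.dvd_prime Nat.prime_three).1 h9 with h | h
      · exact ⟨0, by rw [h]; rfl⟩
      · exact ⟨1, by rw [h]; rfl⟩
    obtain ⟨R', hR'⟩ := hP.exists_le_sylow
    have hRb : (R : Subgroup (E.autGroup Z2)) = ⊥ := by
      rw [hR, hbot]
      simp
    have hcard : Nat.card R' = 1 := by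
      have h10 := Nat.card_congr (Sylow.equiv R' R).toEquiv
      rw [h10]
      show Nat.card (R : Subgroup (E.autGroup Z2)) = 1
      rw [hRb]
      exact card_bot
    have hR'b : (R' : Subgroup (E.autGroup Z2)) = ⊥ := eq_bot_of_card_eq _ hcard
    have h11 := hR' (mem_zpowers _)
    rw [hR'b, mem_bot] at h11
    exact congrArg Subtype.val h11
  intro x hx
  rw [h4 x hx, hα1]
  rfl

/-! ### the determinant lemma -/

/-- restriction of automorphisms to the centre -/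
noncomputable def rho (Q : Subgroup P) : MulAut Q →* MulAut (center Q) where
  toFun α := Subgroup.centerCongr α
  map_one' := by
    apply MulEquiv.ext
    intro x
    rfl
  map_mul' α β := by
    apply MulEquiv.ext
    intro x
    rfl

theorem rho_apply (Q : Subgroup P) (α : MulAut Q) (v : center Q) : (((rho Q α v : center Q) : Q) : P) =
    ((α (v : Q) : Q) : P) := rfl

/-- conjugation by `a` of maps of the subsystem -/
theorem conjE {E : FusionSystem T} (hI : StrongInvC E F) {R : Subgroup P} (hRT : R ≤ T) {f a b : P → P}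
    (hf : Mp E R f) (hfR : ∀ x ∈ R, f x ∈ R) (ha : Mp F R a) (hb : ∀ x ∈ R, b x ∈ R ∧ a (b x) = x) :
    Mp E R (fun x => a (f (b x))) := by
  refine hI R R R f a _ le_rfl hRT hf hfR ha fun y hy => ⟨b y, (hb y hy).1, (hb y hy).2, rfl⟩

theorem caseB_det {Q : Subgroup P} (hB : CaseB F Q) {E : FusionSystem T} (hI : StrongInvC E F)
    (hT : F.StronglyClosed T) (h2 : Z2 ≤ T) (h5 : N5 ≤ T) : ∃ h : P → P, Mp E Z2 h ∧ Z2map h ∧ (m4 h).det = -1 := by
  have hc2 : ∀ z ∈ Z2, ∀ q ∈ Q, z * q = q * z := fun z hz q hq => Z2_comm hz (hB.le hq)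
  have hcm : ∀ z (hz : z ∈ Z2), (⟨z, hB.ge hz⟩ : Q) ∈ center Q := by
    intro z hz
    rw [mem_center_iff]
    intro q
    apply Subtype.ext
    exact (hc2 z hz q q.2).symm
  -- functions of automorphisms
  have hfun : ∀ α : F.autGroup Q, ∃ f ∈ AF F Q, ∀ x (hx : x ∈ Q), f x = (((α : MulAut Q) ⟨x, hx⟩ : Q) : P) := by
    intro α
    refine ⟨ex fun x => (((α : MulAut Q) x : Q) : P), ⟨(mp_iff_autGroup le_top _).1 α.2, fun x hx => ?_⟩, fun x hx => ?_⟩
    · rw [ex_apply _ hx]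
      exact ((α : MulAut Q) ⟨x, hx⟩).2
    · rw [ex_apply _ hx]
  have hn5 : ∀ n ∈ N5, n ∈ normalizer (Q : Set P) := by
    intro n hn
    rw [mem_normalizer_iff]
    have key : ∀ m ∈ N5, ∀ q ∈ Q, m * q * m⁻¹ ∈ Q := by
      intro m hm q hq
      have h3 := E1_mul m q (N5_le_E1 hm) (hB.le hq)
      have h4 := ce_N5 hm (hB.le hq)
      rw [h3]
      have h5 : q * m * ce m q * m⁻¹ = q * (m * ce m q * m⁻¹) := by group
      rw [h5, N5_commute hm (ce_mem _ _), mul_inv_cancel_right]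
      exact mul_mem hq (hB.ge h4)
    intro q
    refine ⟨key n hn q, fun h => ?_⟩
    have h6 := key n⁻¹ (inv_mem hn) _ h
    have h7 : n⁻¹ * (n * q * n⁻¹) * n⁻¹⁻¹ = q := by group
    rwa [h7] at h6
  let A := F.autGroup Q
  let ρ : A →* MulAut (center Q) := (rho Q).comp A.subtype
  let TT : Subgroup A := {
    carrier := {α | ∃ n ∈ N5, ∀ x : Q, (((α : MulAut Q) x : Q) : P) = n * x * n⁻¹}
    one_mem' := ⟨1, one_mem _, fun x => by simp⟩
    mul_mem' := by
      rintro α β ⟨n, hn, h⟩ ⟨m, hm, h'⟩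
      refine ⟨n * m, mul_mem hn hm, fun x => ?_⟩
      show (((α : MulAut Q) ((β : MulAut Q) x) : Q) : P) = _
      rw [h, h']
      group
    inv_mem' := by
      rintro α ⟨n, hn, h⟩
      refine ⟨n⁻¹, inv_mem hn, fun x => ?_⟩
      have h3 := h ((α : MulAut Q)⁻¹ x)
      rw [MulAut.apply_inv_self] at h3
      show ((((α : MulAut Q)⁻¹) x : Q) : P) = _
      rw [h3]
      group }
  have hTTmem : ∀ n ∈ N5, ∃ α ∈ TT, ∀ x : Q, (((α : MulAut Q) x : Q) : P) = n * x * n⁻¹ := by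
    intro n hn
    have h3 : Mp F Q (fun x => n * x * n⁻¹) := mp_conj F le_top (mem_top n)
    obtain ⟨α, hα, h4⟩ := h3.exists_aut fun x hx => (mem_normalizer_iff.1 (hn5 n hn) x).1 hx
    exact ⟨⟨α, hα⟩, ⟨n, hn, fun x => (h4 x x.2).symm⟩, fun x => (h4 x x.2).symm⟩
  let z1 : center Q := ⟨⟨u9, hB.ge u9_mem⟩, hcm u9 u9_mem⟩
  let z2 : center Q := ⟨⟨u10, hB.ge (Z1_le_Z2 u10_mem)⟩, hcm u10 (Z1_le_Z2 u10_mem)⟩
  let ZZ : Subgroup (center Q) := Subgroup.closure {z1, z2}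
  have hval : ∀ v : center Q, v ∈ ZZ ↔ ((v : Q) : P) ∈ Z2 := by
    intro v
    constructor
    · intro hv
      refine Subgroup.closure_induction (G := center Q) (k := {z1, z2}) (p := fun v _ => ((v : Q) : P) ∈ Z2)
        ?_ ?_ ?_ ?_ hv
      · rintro x (rfl | rfl)
        · exact u9_mem
        · exact Z1_le_Z2 u10_mem
      · exact one_mem _
      · intro x y _ _ hx hy
        exact mul_mem hx hy
      · intro x _ hx
        exact inv_mem hx
    · intro hv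
      have h3 : v = z1 ^ (((v : Q) : P).x9).val * z2 ^ (((v : Q) : P).x10).val := by
        apply Subtype.ext
        apply Subtype.ext
        exact mem_Z2_pow hv
      rw [h3]
      exact mul_mem (pow_mem (show z1 ∈ ZZ from Subgroup.subset_closure (by simp)) _)
        (pow_mem (show z2 ∈ ZZ from Subgroup.subset_closure (by simp)) _)
  have hmem : ∀ (a : A) (v : center Q), v ∈ ZZ.map (ρ a).toMonoidHom ↔ ∃ w ∈ ZZ, ρ a w = v := fun a v => Iff.rfl
  -- members moved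
  have hmv : ∀ a : A, ZZ.map (ρ a).toMonoidHom ≠ ZZ → ∀ f ∈ AF F Q, (∀ x (hx : x ∈ Q), f x = (((a : MulAut Q) ⟨x, hx⟩ : Q) : P)) →
      ∃ w ∈ Z2, f w ∉ Z2 := by
    intro a ha f hf hfa
    by_contra hcon
    push Not at hcon
    apply ha
    have hle : ZZ.map (ρ a).toMonoidHom ≤ ZZ := by
      intro v hv
      obtain ⟨w, hw, rfl⟩ := (hmem a v).1 hv
      rw [hval]
      have h3 := hcon _ ((hval w).1 hw)
      rw [hfa _ (hB.ge ((hval w).1 hw))] at h3
      exact h3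
    refine eq_of_le_of_card_ge hle ?_
    rw [card_map_of_injective (ρ a).injective]
  have hmv' : ∀ a : A, ∀ f ∈ AF F Q, (∀ x (hx : x ∈ Q), f x = (((a : MulAut Q) ⟨x, hx⟩ : Q) : P)) →
      (∃ w ∈ Z2, f w ∉ Z2) → ZZ.map (ρ a).toMonoidHom ≠ ZZ := by
    intro a f hf hfa ⟨w, hw, hfw⟩ heq
    apply hfw
    have h3 : ρ a ⟨⟨w, hB.ge hw⟩, hcm w hw⟩ ∈ ZZ := by
      rw [← heq]
      exact (hmem a _).2 ⟨_, (hval _).2 hw, rfl⟩
    rw [hval] at h3
    rw [hfa w (hB.ge hw)]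
    exact h3
  -- nontrivial elements of moved members are outside `N5` and have full commutator
  have hrk : ∀ a : A, ZZ.map (ρ a).toMonoidHom ≠ ZZ → ∀ l ∈ ZZ.map (ρ a).toMonoidHom, l ≠ 1 →
      ((l : Q) : P) ∉ N5 ∧ ∀ z ∈ Z2, ∃ n ∈ N5, n * ((l : Q) : P) * n⁻¹ = ((l : Q) : P) * z := by
    intro a ha l hl hl1
    obtain ⟨w, hw, rfl⟩ := (hmem a l).1 hl
    obtain ⟨f, hf, hfa⟩ := hfun a
    have h3 := hB.rk f hf (hmv a ha f hf hfa) ((w : Q) : P) ((hval w).1 hw) (fun h => hl1 (by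
      have : w = 1 := Subtype.ext (Subtype.ext h)
      rw [this, map_one]))
    rw [hfa _ (w : Q).2] at h3
    exact h3
  have hdis1 : ∀ a : A, ∀ v : center Q, v ≠ 1 → v ∈ ZZ.map (ρ a).toMonoidHom → v ∈ ZZ → ZZ.map (ρ a).toMonoidHom = ZZ := by
    intro a v hv1 hva hv
    by_contra hne
    exact (hrk a hne v hva hv1).1 (Z2_le_N5 ((hval v).1 hv))
  obtain ⟨b0, hb0, w0, hw0, hbw0⟩ := hB.mov
  obtain ⟨β, hβ, hβ2⟩ := hb0.1.exists_aut hb0.2
  -- SE for elements of `N5`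
  have hse : ∀ n ∈ N5, n ∉ Q → ∀ a : A, ZZ.map (ρ a).toMonoidHom ≠ ZZ →
      ¬ ∀ w ∈ Z2, ∃ w' ∈ Z2, ∀ (hw : w ∈ Q) (hw' : w' ∈ Q), n * (((a : MulAut Q) ⟨w, hw⟩ : Q) : P) * n⁻¹ = (((a : MulAut Q) ⟨w', hw'⟩ : Q) : P) := by
    intro n hn hnQ a ha hst
    obtain ⟨f, hf, hfa⟩ := hfun a
    obtain ⟨w, hw, hfw⟩ := hmv a ha f hf hfa
    have h3 := hB.se.conj (ctx_of F hB.cent) (hn5 n hn) hnQ hf (b := fun x => x) ⟨mp_id F le_top, fun _ hx => hx⟩
      (fun w hw => by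
        obtain ⟨w', hw', h4⟩ := hst w hw
        exact ⟨w', hw', by rw [hfa w (hB.ge hw), hfa w' (hB.ge hw')]; exact h4 _ _⟩)
      (fun w hw => ⟨w, hw, by
        have h4 : n * w = w * n := N5_commute hn (Z2_le_N5 hw)
        rw [h4, mul_inv_cancel_right]⟩) w hw
    obtain ⟨w', hw', h4⟩ := h3
    exact hfw (h4 ▸ hw')
  let _ : CommGroup (center Q) := { (inferInstance : Group (center Q)) with
    mul_comm := fun a b => Subtype.ext (mem_center_iff.1 b.2 a) }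
  obtain ⟨h, hh, a11, a12, a21, a22, e1, e2, e3⟩ := H993.ExistsDet.exists_det ρ TT z1 z2
    (Subtype.ext (Subtype.ext (N5_cube (Z2_le_N5 u9_mem)))) (Subtype.ext (Subtype.ext (N5_cube (Z1_le_N5 u10_mem))))
    (by
      intro i j hij
      have h3 : u9 ^ i * u10 ^ j = 1 := congrArg (fun v : center Q => ((v : Q) : P)) hij
      rw [N5_pow (Z2_le_N5 u9_mem), N5_pow (Z1_le_N5 u10_mem), N5_mul_eq ⟨rfl, rfl, rfl, rfl, rfl⟩ ⟨rfl, rfl, rfl, rfl, rfl⟩] at h3
      have h9 := congrArg V.x9 h3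
      have h10 := congrArg V.x10 h3
      simp [u9, u10, one_x9, one_x10] at h9 h10
      exact ⟨(ZMod.natCast_eq_zero_iff _ _).1 h9, (ZMod.natCast_eq_zero_iff _ _).1 h10⟩)
    ZZ rfl
    (by
      rintro n ⟨m, hm, hnm⟩ v
      rw [hval]
      have hvE : ((v : Q) : P) ∈ E1 := hB.le (v : Q).2
      have h3 := E1_mul m ((v : Q) : P) (N5_le_E1 hm) hvE
      show ((((n : MulAut Q) (v : Q)) : Q) : P) * (((v : Q) : P))⁻¹ ∈ Z2
      rw [hnm (v : Q), h3]
      have hce := ce_N5 hm hvE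
      have h4 : ((v : Q) : P) * m * ce m ((v : Q) : P) * m⁻¹ * (((v : Q) : P))⁻¹ =
          ((v : Q) : P) * (m * ce m ((v : Q) : P) * m⁻¹) * (((v : Q) : P))⁻¹ := by group
      rw [h4, N5_commute hm (ce_mem _ _), mul_inv_cancel_right, ← Z2_comm hce hvE, mul_inv_cancel_right]
      exact hce)
    (by
      rintro n ⟨m, hm, hnm⟩ z hz
      apply Subtype.ext
      apply Subtype.ext
      show ((((n : MulAut Q) (z : Q)) : Q) : P) = ((z : Q) : P)
      rw [hnm (z : Q), N5_commute hm (Z2_le_N5 ((hval z).1 hz)), mul_inv_cancel_right])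
    (by
      intro a b v hv1 hva hvb
      have h3 : ZZ.map (ρ (b⁻¹ * a)).toMonoidHom = ZZ := by
        refine hdis1 (b⁻¹ * a) (ρ b⁻¹ v) (fun h => hv1 ?_) ?_ ?_
        · have h4 := congrArg (ρ b) h
          rwa [← MulAut.mul_apply, ← map_mul, mul_inv_cancel, map_one, map_one, MulAut.one_apply] at h4
        · obtain ⟨w, hw, rfl⟩ := (hmem a v).1 hva
          exact (hmem _ _).2 ⟨w, hw, by rw [map_mul]; rfl⟩
        · obtain ⟨w, hw, rfl⟩ := (hmem b v).1 hvb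
          rw [← MulAut.mul_apply, ← map_mul, inv_mul_cancel, map_one, MulAut.one_apply]
          exact hw
      ext v
      have h4 : ∀ v, v ∈ ZZ.map (ρ (b⁻¹ * a)).toMonoidHom ↔ v ∈ ZZ := fun v => by rw [h3]
      constructor
      · intro hv
        obtain ⟨w, hw, rfl⟩ := (hmem a v).1 hv
        have h5 := (h4 (ρ (b⁻¹ * a) w)).1 ((hmem _ _).2 ⟨w, hw, rfl⟩)
        refine (hmem b _).2 ⟨_, h5, ?_⟩
        rw [← MulAut.mul_apply, ← map_mul, mul_inv_cancel_left]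
      · intro hv
        obtain ⟨w, hw, rfl⟩ := (hmem b v).1 hv
        obtain ⟨w', hw', h5⟩ := (hmem _ _).1 ((h4 w).2 hw)
        refine (hmem a _).2 ⟨w', hw', ?_⟩
        rw [← h5, ← MulAut.mul_apply, ← map_mul, mul_inv_cancel_left])
    ⟨β, hβ⟩ (hmv' ⟨β, hβ⟩ b0 hb0 hβ2 ⟨w0, hw0, hbw0⟩)
    (by
      intro a ha l hl hl1 z hz
      obtain ⟨n, hn, h3⟩ := (hrk a ha l hl hl1).2 ((z : Q) : P) ((hval z).1 hz)
      obtain ⟨α, hα, h4⟩ := hTTmem n hn
      refine ⟨α, hα, ?_⟩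
      apply Subtype.ext
      apply Subtype.ext
      show ((((α : MulAut Q) (l : Q)) : Q) : P) = _
      rw [h4 (l : Q), h3]
      rfl)
    (by
      rintro n ⟨m, hm, hnm⟩ ⟨v, hv⟩ a ha heq
      have hmQ : m ∉ Q := by
        intro hmQ
        apply hv
        apply Subtype.ext
        apply Subtype.ext
        show ((((n : MulAut Q) (v : Q)) : Q) : P) = _
        rw [hnm (v : Q)]
        have h3 := mem_center_iff.1 v.2 ⟨m, hmQ⟩
        have h4 : m * ((v : Q) : P) = ((v : Q) : P) * m := congrArg Subtype.val h3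
        rw [h4, mul_inv_cancel_right]
      apply hse m hm hmQ a ha
      intro w hw
      have h3 : ρ (n * a) ⟨⟨w, hB.ge hw⟩, hcm w hw⟩ ∈ ZZ.map (ρ a).toMonoidHom := by
        rw [← heq]
        exact (hmem _ _).2 ⟨_, (hval _).2 hw, rfl⟩
      obtain ⟨w', hw', h4⟩ := (hmem _ _).1 h3
      refine ⟨((w' : Q) : P), (hval w').1 hw', fun h5 h6 => ?_⟩
      have h7 : ((((a : MulAut Q) (w' : Q)) : Q) : P) = (((n : MulAut Q) ((a : MulAut Q) ⟨w, h5⟩) : Q) : P) :=
        congrArg (fun v : center Q => ((v : Q) : P)) h4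
      rw [hnm] at h7
      exact h7.symm)
  -- the restriction of `h` to `Q ∩ T` is a map of `E`
  have hR : ∀ x ∈ Subgroup.closure {x : A | ∃ a : A, ∃ n ∈ TT, x = a * n * a⁻¹}, ∀ f : P → P,
      (∀ y (hy : y ∈ Q), f y = (((x : MulAut Q) ⟨y, hy⟩ : Q) : P)) → Mp E (Q ⊓ T) f := by
    have hAT : ∀ x : A, ∀ y (hy : y ∈ Q), y ∈ T → (((x : MulAut Q) ⟨y, hy⟩ : Q) : P) ∈ T := by
      intro x y hy hyT
      obtain ⟨f, hf, hfx⟩ := hfun x
      rw [← hfx y hy]
      exact mp_mem_of_stronglyClosed hT hf.1 hy hyT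
    intro x hx
    refine Subgroup.closure_induction (G := A) (k := {x : A | ∃ a : A, ∃ n ∈ TT, x = a * n * a⁻¹})
      (p := fun x _ => ∀ f : P → P, (∀ y (hy : y ∈ Q), f y = (((x : MulAut Q) ⟨y, hy⟩ : Q) : P)) → Mp E (Q ⊓ T) f) ?_ ?_ ?_ ?_ hx
    · rintro _ ⟨a, n, ⟨m, hm, hnm⟩, rfl⟩ f hf
      obtain ⟨fa, hfa, hfa'⟩ := hfun a
      obtain ⟨fb, hfb, hfb'⟩ := hfun a⁻¹
      have h3 : Mp E (Q ⊓ T) (fun x => m * x * m⁻¹) := mp_conj E inf_le_right (h5 hm)
      have h33 : ∀ x ∈ Q ⊓ T, m * x * m⁻¹ ∈ Q ⊓ T := fun x hx => ⟨(mem_normalizer_iff.1 (hn5 m hm) x).1 hx.1,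
        T.mul_mem (T.mul_mem (h5 hm) hx.2) (T.inv_mem (h5 hm))⟩
      have h4 := conjE (b := fb) hI inf_le_right h3 h33 (hfa.1.res inf_le_left) (fun x hx => by
          refine ⟨⟨hfb.2 x hx.1, mp_mem_of_stronglyClosed hT hfb.1 hx.1 hx.2⟩, ?_⟩
          rw [hfb' x hx.1, hfa' _ (Subtype.mem _)]
          show (((a : MulAut Q) (((a : MulAut Q)⁻¹) ⟨x, hx.1⟩) : Q) : P) = x
          rw [MulAut.apply_inv_self])
      refine h4.congr fun x hx => ?_
      rw [hf x hx.1]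
      have h6 : m * fb x * m⁻¹ ∈ Q := (mem_normalizer_iff.1 (hn5 m hm) _).1 (hfb.2 x hx.1)
      rw [hfa' _ h6]
      show (((a : MulAut Q) ((n : MulAut Q) (((a : MulAut Q)⁻¹) ⟨x, hx.1⟩)) : Q) : P) = _
      congr 2
      apply Subtype.ext
      show ((((n : MulAut Q) (((a : MulAut Q)⁻¹) ⟨x, hx.1⟩)) : Q) : P) = m * fb x * m⁻¹
      rw [hnm, hfb' x hx.1]
      rfl
    · intro f hf
      exact (mp_id E inf_le_right).congr fun x hx => hf x hx.1
    · intro x y _ _ hx hy f hf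
      obtain ⟨fx, hfx, hfx'⟩ := hfun x
      obtain ⟨fy, hfy, hfy'⟩ := hfun y
      refine ((hy fy hfy').comp (hx fx hfx') fun z hz => ⟨hfy.2 z hz.1, mp_mem_of_stronglyClosed hT hfy.1 hz.1 hz.2⟩).congr
        fun z hz => ?_
      rw [hf z hz.1, hfx' _ (hfy.2 z hz.1)]
      show (((x : MulAut Q) ((y : MulAut Q) ⟨z, hz.1⟩) : Q) : P) = _
      congr 2
      exact Subtype.ext (hfy' z hz.1).symm
    · intro x _ hx f hf
      obtain ⟨fx, hfx, hfx'⟩ := hfun x
      refine (hx fx hfx').symm fun y hy => ⟨(((x : MulAut Q)⁻¹ ⟨y, hy.1⟩ : Q) : P), ⟨Subtype.mem _, ?_⟩, ?_, ?_⟩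
      · exact hAT x⁻¹ y hy.1 hy.2
      · rw [hfx' _ (Subtype.mem _)]
        show (((x : MulAut Q) (((x : MulAut Q)⁻¹) ⟨y, hy.1⟩) : Q) : P) = y
        rw [MulAut.apply_inv_self]
      · rw [hf y hy.1]
        rfl
  obtain ⟨f, hf, hfh⟩ := hfun h
  have hfE := hR h hh f hfh
  have h2R : Z2 ≤ Q ⊓ T := le_inf hB.ge h2
  have f9 : f u9 = u9 ^ a11 * u10 ^ a12 := by
    rw [hfh u9 (hB.ge u9_mem)]
    exact congrArg (fun v : center Q => ((v : Q) : P)) e1
  have f10 : f u10 = u9 ^ a21 * u10 ^ a22 := by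
    rw [hfh u10 (hB.ge (Z1_le_Z2 u10_mem))]
    exact congrArg (fun v : center Q => ((v : Q) : P)) e2
  have f9Z : f u9 ∈ Z2 := by
    rw [f9]
    exact mul_mem (pow_mem u9_mem _) (pow_mem (Z1_le_Z2 u10_mem) _)
  have f10Z : f u10 ∈ Z2 := by
    rw [f10]
    exact mul_mem (pow_mem u9_mem _) (pow_mem (Z1_le_Z2 u10_mem) _)
  have hmap : Z2map f := by
    refine ⟨fun x hx => ?_, fun x hx y hy => hf.1.mul (hB.ge hx) (hB.ge hy)⟩
    rw [mem_Z2_pow hx, hf.1.mul (pow_mem (hB.ge u9_mem) _) (pow_mem (hB.ge (Z1_le_Z2 u10_mem)) _),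
      hf.1.pow (hB.ge u9_mem), hf.1.pow (hB.ge (Z1_le_Z2 u10_mem))]
    exact mul_mem (pow_mem f9Z _) (pow_mem f10Z _)
  refine ⟨f, hfE.res h2R, hmap, ?_⟩
  have g9 : u9 ^ a11 * u10 ^ a12 = ⟨0, 0, 0, 0, 0, 0, 0, 0, a11, a12⟩ := by
    rw [N5_pow (Z2_le_N5 u9_mem), N5_pow (Z1_le_N5 u10_mem), N5_mul_eq ⟨rfl, rfl, rfl, rfl, rfl⟩ ⟨rfl, rfl, rfl, rfl, rfl⟩]
    ext <;> simp [u9, u10]
  have g10 : u9 ^ a21 * u10 ^ a22 = ⟨0, 0, 0, 0, 0, 0, 0, 0, a21, a22⟩ := by
    rw [N5_pow (Z2_le_N5 u9_mem), N5_pow (Z1_le_N5 u10_mem), N5_mul_eq ⟨rfl, rfl, rfl, rfl, rfl⟩ ⟨rfl, rfl, rfl, rfl, rfl⟩]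
    ext <;> simp [u9, u10]
  have h3 : m4 f = ⟨a11, a12, a21, a22⟩ := by
    simp only [m4, f9, f10, g9, g10]
  rw [h3]
  show (a11 : ZMod 3) * a22 - a12 * a21 = -1
  have h4 : ((a11 * a22 : ℕ) : ZMod 3) = ((a12 * a21 + 2 : ℕ) : ZMod 3) := (ZMod.natCast_eq_natCast_iff' _ _ _).2 e3
  push_cast at h4
  rw [h4]
  have h5 : (2 : ZMod 3) = -1 := by decide
  linear_combination h5

end Cfsg.Agent.H776.ThS
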